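import Cfsg.Agent.H9.Sig

/-! # The Alperin–Dade isomorphism of principal blocks, on characters, for `p'`-sections only -/

namespace H9
open Cfsg H3 MonoidAlgebra Subgroup
open scoped ComplexConjugate Pointwise
set_option linter.style.haveILetI false
set_option linter.unusedSectionVars false

variable {p : ℕ} {M : Ideal AlgInt} {G : Type*} [Group G] [Finite G] [PMod p M] [Fact p.Prime]
variable {N J K E : Subgroup G} {α β θ : G → ℂ} {g x : G}

def AD2 (p : ℕ) (N : Subgroup G) : Prop :=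
  ∀ g, ¬ p ∣ N.relIndex (N ⊔ zpowers g) → ∃ x, g * x⁻¹ ∈ N ∧ ¬ p ∣ (cen1 x).relIndex N

theorem InB0.gal (p : ℕ) [PMod p M] [Fact p.Prime] (a : InB0 M J α) (σ : ℂ →+* ℂ) : InB0 M J fun g => σ (α g) := by
  obtain ⟨χ, h, e⟩ := a
  exact ⟨_, gal_mem_B0 σ h, by rw [← show _ = fun n : J => σ (α n) from congrArg (fun f n => σ (f n)) e]⟩

theorem exists_pElt_reg {A B : Type*} [CommGroup A] [Finite A] [Group B] [Finite B] (δ : A) {n : ℕ} (hn : ¬ p ∣ n)
    (f : A →* B) (hf : IsPRegular p (f δ)) : ∃ l : A, IsPElt p l ∧ f l = 1 ∧ IsPRegular p (l ^ n * δ) := by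
  obtain ⟨j, hj⟩ := isPElt_pp (p := p) δ
  obtain ⟨m, hm⟩ := exists_pow_eq_self_of_coprime (x := (pp p δ)⁻¹) (n := n) (by
    rw [orderOf_inv, hj]; exact ((Fact.out : p.Prime).coprime_iff_not_dvd.2 hn).symm.pow_right _)
  refine ⟨(pp p δ)⁻¹ ^ m, (isPElt_pp δ).inv.pow _, by rw [map_pow, map_inv, ← pp_map, pp_of_isPRegular hf]; simp, ?_⟩
  rw [← pow_mul, mul_comm m, pow_mul, hm, inv_mul_eq_iff_eq_mul.2 (pp_mul_pq _).symm]
  exact isPRegular_pq _

theorem eq_one_of_reg_mul {A : Type*} [CommGroup A] [Finite A] {l δ : A} {n : ℕ} (hn : ¬ p ∣ n) (h : IsPElt p l)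
    (r : IsPRegular p δ) (r' : IsPRegular p (l ^ n * δ)) : l = 1 :=
  eq_one_of_isPElt_of_isPRegular h (isPRegular_of_pow_eq_one hn (eq_one_of_isPElt_of_isPRegular (h.pow _) (by
    simpa using isPRegular_mul r' (isPRegular_inv.2 r) (Commute.all _ _))))

theorem IsPElt.lin_apply {l : G →* ℂˣ} (h : IsPElt p l) (hg : IsPRegular p g) : l g = 1 := by
  obtain ⟨k, hk⟩ := isPElt_iff_pow.1 h
  exact eq_one_of_isPElt_of_isPRegular (isPElt_iff_pow.2 ⟨k, DFunLike.congr_fun hk g⟩) (isPRegular_map hg l)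

theorem isPElt_lin {l : G →* ℂˣ} (h : ∀ g, IsPRegular p g → l g = 1) : IsPElt p l :=
  isPElt_iff_pow.2 ⟨(Nat.card G).factorization p, MonoidHom.ext fun g => by
    obtain ⟨j, hj⟩ := isPElt_pp (p := p) g
    change l g ^ _ = 1
    rw [← pp_mul_pq (p := p) g, map_mul, h _ (isPRegular_pq g), mul_one, ← map_pow, orderOf_dvd_iff_pow_eq_one.1
      (hj ▸ pow_dvd_pow _ (((Fact.out : p.Prime).pow_dvd_iff_le_factorization Nat.card_pos.ne').1
      (hj ▸ orderOf_dvd_natCard _))), map_one]⟩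

variable [hN : N.Normal]

theorem not_dvd_relIndex_sup (hE : ¬ p ∣ Nat.card E) : ¬ p ∣ N.relIndex (N ⊔ E) := fun e => hE (by
  rw [relIndex_sup_left] at e; exact e.trans (relIndex_dvd_card _ _))

theorem not_dvd_relIndex_zpowers (hg : IsPRegular p g) : ¬ p ∣ N.relIndex (N ⊔ zpowers g) :=
  not_dvd_relIndex_sup (by rwa [Nat.card_zpowers])

theorem pp_mem_of_not_dvd (hi : ¬ p ∣ N.relIndex J) (hg : g ∈ J) : pp p g ∈ N := by
  have := (QuotientGroup.eq_one_iff (N := N.subgroupOf J) _).1 (eq_one_of_isPElt_of_isPRegular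
    ((isPElt_pp (⟨g, hg⟩ : J)).map (QuotientGroup.mk' _)) fun e => hi (e.trans (orderOf_dvd_natCard _)))
  rwa [mem_subgroupOf, ← pp_coe] at this

theorem ad2_of_index (Q : Sylow p N) {a : ℕ} (h : (N ⊔ cen (Q.1.map N.subtype)).index = p ^ a) : AD2 p N := by
  intro g hg
  haveI : (N ⊔ cen (Q.1.map N.subtype)).Normal := normalizer_eq_top_iff.1 (eq_top_iff.2 (by
    rw [← Q.normalizer_sup_eq_top]
    refine sup_le (fun x hx => ?_) (le_sup_left.trans le_normalizer)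
    rw [← conjAct_pointwise_smul_iff]
    change MulAut.conj x • (N ⊔ cen (Q.1.map N.subtype)) = _
    rw [conj_smul_sup, conj_smul_normal, conj_smul_cen]
    exact congrArg (fun S => N ⊔ cen S) (conjAct_pointwise_smul_iff.2 hx)))
  obtain ⟨n, hn, x, hx, e⟩ := (mem_sup_of_normal_left ..).1 (mem_of_reg_of_index h (isPRegular_pq g))
  refine ⟨x, ?_, fun e => Q.not_dvd_index ?_⟩
  · rw [← pp_mul_pq (p := p) g, ← e]
    simpa [mul_assoc] using mul_mem (pp_mem_of_not_dvd hg (mem_sup_right (mem_zpowers g))) hn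
  · have := e.trans (relIndex_dvd_of_le_left N fun g (hg : g ∈ Q.1.map N.subtype) =>
      mem_centralizer_singleton_iff.2 (hx g hg))
    rwa [relIndex, subgroupOf, comap_map_eq_self_of_injective N.subtype_injective] at this

variable (h : AD2 p N)
include h

theorem AD2.exists (l : N ≤ J) (hi : ¬ p ∣ N.relIndex J) (y : J) : ∃ x : J, y * x⁻¹ ∈ N.subgroupOf J ∧ ¬ p ∣ (cen1 (x : G)).relIndex N := by
  obtain ⟨x, a, b⟩ := h y (not_dvd_relIndex_of_le le_sup_left (sup_le l (zpowers_le.2 y.2)) hi)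
  exact ⟨⟨x, by simpa using mul_mem (inv_mem (l a)) y.2⟩, a, b⟩

theorem AD2.eq_one (l : N ≤ K) (lk : K ≤ J) (hi : ¬ p ∣ N.relIndex J) (r : Rr M N J α) {ω : J →* ℂˣ} (hω : ω ∈ triv (K.subgroupOf J))
    (e : lf ω * α↾J = α↾J) : ω = 1 := by
  ext y
  obtain ⟨x, a, b⟩ := h.exists (l.trans lk) hi y
  have := mem_triv.1 hω _ (l a)
  rw [map_mul, map_inv, mul_inv_eq_one] at this
  rw [this]
  by_contra h0
  have h1 := r x x.2 b
  rw [show α x = 0 from eq_zero_of_lstab (mem_lstab.2 e) fun h => h0 (by rw [h]; rfl)] at h1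
  exact one_not_mem_LI (by simpa using neg_mem h1)

theorem AD2.uniq (l : N ≤ J) (hi : ¬ p ∣ N.relIndex J) (a : Irr N α↾N) (b : Ch J α↾J) (c : Irr J β↾J)
    (d : ⟪β↾N, α↾N⟫ ≠ 0) (r : Rr M N J α) (s : Rr M N J β) : α↾J = β↾J := by
  obtain ⟨γ, hγ, k, e⟩ := gallagher b ((irr_sub l).2 a) c (by rwa [inner_sub l])
  obtain ⟨ψ, hψ⟩ := exists_infl_eq (QuotientGroup.mk'_surjective (N.subgroupOf J)) (χ := ⟨γ, hγ⟩)
    (by rwa [QuotientGroup.ker_mk'])
  obtain rfl : (fun g : J => ψ.1 (g : J ⧸ N.subgroupOf J)) = γ := congrArg Subtype.val hψ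
  haveI := Fintype.ofFinite (J ⧸ N.subgroupOf J)
  have h1 := inner_div_sub_mem (M := M) (H := J ⧸ N.subgroupOf J) hi (F := ψ.1) (ψ.1 1) (fun y => by
    obtain ⟨y, rfl⟩ := QuotientGroup.mk_surjective y
    obtain ⟨x, a, b⟩ := h.exists l hi y
    rw [show (y : J ⧸ N.subgroupOf J) = x from (QuotientGroup.eq_iff_div_mem.2 (by rwa [div_eq_mul_inv]))]
    have h2 := r x x.2 b
    have h3 := s x x.2 b
    rw [← show _ = β x from congrFun e x, ← show _ = β 1 from congrFun e 1] at h3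
    have h4 : α x / α 1 ∉ LI M := fun h => one_not_mem_LI (by simpa using sub_mem h h2)
    have h5 := div_mem_LI (sub_mem h3 h2) (by simpa using add_mem (mem_LR_of_mem_LI h2) (one_mem _)) h4
    convert h5 using 1
    have := ne_zero_of_not_mem_LI h4
    simp only [Pi.mul_apply, QuotientGroup.mk_one, OneMemClass.coe_one]
    rw [mul_div_mul_comm]
    generalize α x / α 1 = c at this
    field_simp; ring) isCharacter_one
  rw [isIrrCharacter_one.inner_self] at h1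
  have h2 : ψ.1 = fun _ => 1 := ψ.2.eq_of_inner_ne_zero isIrrCharacter_one fun h0 =>
    one_not_mem_LI (by simpa [h0] using neg_mem h1)
  rw [← e, h2]; exact (one_mul _).symm

theorem AD2.irr_step (l : N ≤ K) (lk : K ≤ J) (hi : ¬ p ∣ N.relIndex J) (c : ⁅J, J⁆ ≤ K)
    (a : Irr J α↾J) (r : Rr M N J α) : Irr K α↾K := by
  haveI := Normal.of_commutator_le _ (commutator_le_sub c)
  refine (irr_sub lk).1 ((a.isCharacter.res _).isIrr_of_inner_self ?_)
  rw [inner_res_eq_card (commutator_le_sub c) a, show triv (K.subgroupOf J) ⊓ lstab α↾J = ⊥ from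
    eq_bot_iff.2 fun ω hω => h.eq_one l lk hi r hω.1 hω.2, card_bot, Nat.cast_one]

theorem AD2.irr_solv (hE : Group.IsSolvable E) (hi : ¬ p ∣ N.relIndex (N ⊔ E))
    (a : Irr ↥(N ⊔ E) α↾↥(N ⊔ E)) (r : Rr M N (N ⊔ E) α) :
    Irr N α↾N := by
  induction E using WellFoundedLT.induction with | ind E ih => ?_
  by_cases h0 : E = ⊥
  · subst h0; rwa [sup_bot_eq] at a
  have h1 := H1.commutator_lt_of_isSolvable h0
  exact ih _ h1 (Group.isSolvable_of_isSolvable_injective (f := inclusion h1.le) (inclusion_injective _))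
    (not_dvd_relIndex_of_le le_sup_left (sup_le_sup_left h1.le _) hi)
    (h.irr_step le_sup_left (sup_le_sup_left h1.le _) hi (comm_sup_le_sup N E) a r) (r.mono (sup_le_sup_left h1.le _))

theorem AD2.exists_solv (hE : Group.IsSolvable E) (hi : ¬ p ∣ N.relIndex (N ⊔ E)) (a : InB0 M N θ) :
    ∃ α, InB0 M (N ⊔ E) α ∧ α↾N = θ↾N := by
  obtain ⟨ξ, hξ, e⟩ := (inB0_sub (le_sup_left : N ≤ N ⊔ E)).2 a
  obtain ⟨χ, hχ, d⟩ := Bl.exists_over (B0_cov _) hξ
  obtain ⟨α, hα⟩ := exists_amb χ.1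
  have h1 : InB0 M (N ⊔ E) α := ⟨χ, hχ, hα.symm⟩
  rw [e, ← hα, inner_sub le_sup_left] at d
  exact ⟨α, h1, (h.irr_solv hE hi h1.irr (h1.rr le_sup_left hi)).eq_of_inner_ne_zero a.irr d⟩

theorem AD2.can_eq (l : N ≤ J) (hi : ¬ p ∣ N.relIndex (N ⊔ zpowers g)) (a : Irr N θ↾N) (b : Ch J α↾J)
    (r : Rr M N J α) (e : α↾N = θ↾N) (hg : g ∈ J) : can M N θ g = α g := by
  have lk : N ⊔ zpowers g ≤ J := sup_le l (zpowers_le.2 hg)
  have h1 : ∃ α, Ch ↥(N ⊔ zpowers g) α↾↥(N ⊔ zpowers g) ∧ Rr M N (N ⊔ zpowers g) α ∧ α↾N = θ↾N :=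
    ⟨α, ch_mono b lk, r.mono lk, e⟩
  rw [can, dif_pos h1]
  obtain ⟨c, s, f⟩ := h1.choose_spec
  exact congrFun (h.uniq le_sup_left hi (by rwa [f]) c (irr_of_res (ch_mono b lk) le_sup_left (e ▸ a))
    (by rw [e, f, a.inner_self]; exact one_ne_zero) s (r.mono lk)) ⟨g, mem_sup_right (mem_zpowers g)⟩

theorem AD2.can_solv (hE : Group.IsSolvable E) (hi : ¬ p ∣ N.relIndex (N ⊔ E)) (a : InB0 M N θ) :
    InB0 M (N ⊔ E) (can M N θ) ∧ (can M N θ)↾N = θ↾N := by
  obtain ⟨α, b, e⟩ := h.exists_solv hE hi a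
  have h1 : (can M N θ)↾↥(N ⊔ E) = α↾↥(N ⊔ E) := funext fun y => h.can_eq le_sup_left
    (not_dvd_relIndex_of_le le_sup_left (sup_le le_sup_left (zpowers_le.2 y.2)) hi) a.irr b.irr.isCharacter
    (b.rr le_sup_left hi) e y.2
  exact ⟨by rwa [InB0, h1], (res_eq_mono h1 le_sup_left).trans e⟩

theorem AD2.can_conj (hi : ¬ p ∣ N.relIndex (N ⊔ zpowers g)) (a : InB0 M N θ) (t : G)
    (ht : ∀ n ∈ N, θ (t * n * t⁻¹) = θ n) : can M N θ (t * g * t⁻¹) = can M N θ g := by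
  have e : N ⊔ zpowers (t * g * t⁻¹) = MulAut.conj t • (N ⊔ zpowers g) := by
    rw [conj_smul_sup, conj_smul_normal]
    exact congrArg _ (MonoidHom.map_zpowers (MulAut.conj t).toMonoidHom g).symm
  have hi' := hi
  rw [← relIndex_conj t, ← e] at hi'
  obtain ⟨b, c⟩ := h.can_solv (solv_zpowers _) hi' a
  have m : ∀ x ∈ N ⊔ zpowers g, t * x * t⁻¹ ∈ N ⊔ zpowers (t * g * t⁻¹) := fun x hx =>
    e ▸ smul_mem_pointwise_smul x (MulAut.conj t) _ hx
  have c' : Ch ↥(N ⊔ zpowers g) (cf t (can M N θ))↾↥(N ⊔ zpowers g) := by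
    have := b.irr.isCharacter.comp (((MulAut.conj t).toMonoidHom.comp (N ⊔ zpowers g).subtype).codRestrict _
      fun x => m x x.2)
    generalize can M N θ = f at this
    exact this
  refine (h.can_eq (α := cf t (can M N θ)) le_sup_left hi a.irr c' (fun x hx hc => ?_) (funext fun n => ?_)
    (mem_sup_right (mem_zpowers g))).symm
  · rw [cf_at_one]
    refine b.rr le_sup_left hi' _ (m x hx) ?_
    rwa [← conj_smul_cen1, ← conj_smul_normal N t, relIndex_pointwise_smul]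
  · exact (congrFun c ⟨_, hN.conj_mem _ n.2 t⟩).trans (ht n n.2)

theorem AD2.coset_sum (l : N ≤ K) (c : ⁅K, K⁆ ≤ N) (hi : ¬ p ∣ N.relIndex K) (a : InB0 M K α) (hg : g ∈ K) :
    ∑ n : N, pRegularPart p α (n * g) = (N.relIndex K : ℂ)⁻¹ * ∑ y : K, pRegularPart p α y := by
  classical
  have hc := commutator_le_sub c
  have h1 : ∀ ω : triv (N.subgroupOf K), ω ≠ 1 → ∑ y : K, (ω.1 y : ℂ) * pRegularPart p α y = 0 := fun ω h1 => by
    obtain ⟨β, hβ⟩ := exists_amb (lf ω.1 * α↾K)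
    have h2 : (⟨_, a.irr.lf_mul ω.1⟩ : IrrCharacter K) ∉ (B0 M K).1 := fun h2 => by
      have b : InB0 M K β := ⟨_, h2, hβ.symm⟩
      have e : β↾N = α↾N := funext fun n => (congrFun hβ ⟨n, l n.2⟩).trans (by
        simp [mem_triv.1 ω.2 ⟨n, l n.2⟩ n.2])
      have i := h.irr_step le_rfl l hi c a.irr (a.rr l hi)
      exact h1 (Subtype.ext (h.eq_one le_rfl l hi (a.rr l hi) ω.2 (hβ.symm.trans (h.uniq l hi i a.irr.isCharacter
        b.irr (by rw [e, i.inner_self]; exact one_ne_zero) (a.rr l hi) (b.rr l hi)).symm)))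
    rw [mem_B0_iff, not_not, Finset.sum_filter] at h2
    rw [← h2]
    refine Finset.sum_congr rfl fun y _ => ?_
    split_ifs with hy
    · rw [pRegularPart_of_reg (isPRegular_coe.2 hy)]; rfl
    · rw [pRegularPart_of_not_reg (mt isPRegular_coe.1 hy), mul_zero]
  have h2 : ∑ ω : triv (N.subgroupOf K), ∑ y : K, (ω.1 (y * (⟨g, hg⟩ : K)⁻¹) : ℂ) * pRegularPart p α y =
      ∑ y : K, pRegularPart p α y := by
    rw [Finset.sum_eq_single 1 (fun ω _ e => ?_) (by simp)]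
    · simp
    · simp only [map_mul, Units.val_mul, mul_right_comm _ _ (pRegularPart p α _), ← Finset.sum_mul, h1 ω e, zero_mul]
  rw [← h2, Finset.sum_comm, eq_inv_mul_iff_mul_eq₀ (Nat.cast_ne_zero.2 (relIndex_ne_zero' _ _)),
    ← Equiv.sum_comp (Equiv.mulRight (⟨g, hg⟩ : K)), ← sum_sub l fun n => pRegularPart p α (n * g), Finset.mul_sum,
    ← Finset.sum_subtype (Finset.univ.filter (· ∈ N.subgroupOf K)) (by simp)
      fun y : K => (N.relIndex K : ℂ) * pRegularPart p α (y * g), Finset.sum_filter]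
  refine Finset.sum_congr rfl fun y _ => ?_
  simp only [Equiv.coe_mulRight, mul_inv_cancel_right, ← Finset.sum_mul]
  split_ifs with hy
  · rw [sum_triv_of_mem hc hy]; rfl
  · rw [sum_triv_eq_zero hc hy, zero_mul]

theorem AD2.inB0 (l : N ≤ J) (a : Irr J α↾J) (b : ∀ g ∈ J, IsPRegular p g → InB0 M (N ⊔ zpowers g) α) :
    InB0 M J α := by
  classical
  have h0 : ∑ n : N, pRegularPart p α n ≠ 0 := by
    obtain ⟨χ, hχ, e⟩ : InB0 M N α := by simpa using b 1 (one_mem _) isPRegular_one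
    rw [mem_B0_iff, Finset.sum_filter, e] at hχ
    refine fun h => hχ ((Finset.sum_congr rfl fun y _ => ?_).trans h)
    split_ifs with hy
    · rw [pRegularPart_of_reg (isPRegular_coe.2 hy)]
    · rw [pRegularPart_of_not_reg (mt isPRegular_coe.1 hy)]
  have h1 : ∀ y : J, ∑ n : N, pRegularPart p α (n * y) =
      if ∃ n : N, IsPRegular p (n * y : G) then ∑ n : N, pRegularPart p α n else 0 := fun y => by
    split_ifs with hy
    · obtain ⟨m, hm⟩ := hy
      have c : ⁅N ⊔ zpowers (m * y : G), N ⊔ zpowers (m * y : G)⁆ ≤ N := (comm_sup_le_sup _ _).trans (sup_le le_rfl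
        (commutator_le.2 fun a ha b hb => by rw [(commute_of_mem_zpowers ha hb).commutator_eq]; exact one_mem _))
      have i : ¬ p ∣ N.relIndex (N ⊔ zpowers (m * y : G)) := fun e => hm (by
        rw [relIndex_sup_left] at e
        exact Nat.card_zpowers (m * y : G) ▸ e.trans (relIndex_dvd_card _ _))
      have := b _ (mul_mem (l m.2) y.2) hm
      have e := (h.coset_sum le_sup_left c i this (mem_sup_right (mem_zpowers _))).trans
        (h.coset_sum le_sup_left c i this (one_mem _)).symm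
      rw [← Equiv.sum_comp (Equiv.mulRight m)]
      simpa [mul_assoc] using e
    · exact Finset.sum_eq_zero fun n _ => pRegularPart_of_not_reg fun h => hy ⟨n, h⟩
  refine ⟨⟨_, a⟩, mem_B0_iff.2 fun h2 => ?_, rfl⟩
  have h3 : ∑ y : J, ∑ n : N, pRegularPart p α (n * y) = 0 := by
    rw [Finset.sum_comm]
    refine Finset.sum_eq_zero fun n _ => ?_
    rw [← h2, Finset.sum_filter]
    refine Fintype.sum_equiv (Equiv.mulLeft (⟨n, l n.2⟩ : J)) _ _ fun y => ?_
    split_ifs with hy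
    · exact pRegularPart_of_reg (isPRegular_coe.2 hy)
    · exact pRegularPart_of_not_reg fun h => hy (isPRegular_coe.1 h)
  simp only [h1, ← Finset.sum_filter, Finset.sum_const, nsmul_eq_mul, mul_eq_zero, h0, or_false,
    Nat.cast_eq_zero, Finset.card_eq_zero] at h3
  exact Finset.ne_empty_of_mem (a := 1) (by simpa using ⟨1, one_mem _, isPRegular_one⟩) h3

theorem AD2.exists_ext_of_ext (a : InB0 M N θ) {ψ : G → ℂ} (hψ : Irr G ψ) (e : ψ↾N = θ↾N) :
    ∃ χ, Irr G χ ∧ χ↾N = θ↾N ∧ ∀ J, N ≤ J → InB0 M J χ := by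
  haveI := Fintype.ofFinite G
  have ht : ∀ t, ∀ n ∈ N, θ (t * n * t⁻¹) = θ n := fun t n hn => by
    rw [← show _ = θ n from congrFun e ⟨n, hn⟩, ← show _ = θ _ from congrFun e ⟨_, hN.conj_mem n hn t⟩]
    exact hψ.isClassFunction _ _
  have i : ∀ E : Subgroup G, ¬ p ∣ Nat.card E → ¬ p ∣ N.relIndex (N ⊔ E) := fun E hE e => hE (by
    rw [relIndex_sup_left] at e; exact e.trans (relIndex_dvd_card _ _))
  let l : G → ℂ := avg N (ψ * fun g => conj (can M N θ g))
  have h1 : ∀ E : Subgroup G, Group.IsSolvable E → ¬ p ∣ Nat.card E → ∃ ω ∈ triv (N.subgroupOf (N ⊔ E)),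
      ∀ y : ↥(N ⊔ E), l y = ω y ∧ ψ y = ω y * can M N θ y := fun E hE hp => by
    obtain ⟨b, c⟩ := h.can_solv hE (i E hp) a
    obtain ⟨ω, hω, f⟩ := exists_lf_of_ext (N := N.subgroupOf (N ⊔ E)) b.irr.isCharacter
      ((irr_sub le_sup_left).2 (c ▸ a.irr)) (hψ.isCharacter.res _) ((eq_sub le_sup_left).2 (e.trans c.symm))
    refine ⟨ω, hω, fun y => ⟨?_, (congrFun f y).symm⟩⟩
    have h2 := normSq_cosetA le_sup_left b.irr.isCharacter (c ▸ a.irr) y.2
    simp only [l, avg]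
    rw [inv_mul_eq_iff_eq_mul₀ (card_ne_zero N), ← Complex.ofReal_natCast, ← h2]
    push_cast
    rw [Finset.sum_mul]
    refine Finset.sum_congr rfl fun n _ => ?_
    have := congrFun f (⟨n, mem_sup_left n.2⟩ * y)
    simp only [Pi.mul_apply, lf_apply, map_mul, mem_triv.1 hω ⟨n, mem_sup_left n.2⟩ n.2, one_mul, coe_mul] at this
    rw [Pi.mul_apply, ← this, mul_assoc, Complex.mul_conj, Complex.normSq_eq_norm_sq, mul_comm]; simp
  have h2 : ∀ g : G, IsPRegular p g → ¬ p ∣ Nat.card (zpowers g) := fun g hg => by rwa [Nat.card_zpowers]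
  have h3 : Gen G fun g => l (pq p g) := by
    refine isGen_of_nilpotent (fun g t => ?_) fun E hE => ?_
    · simp only [pq_conj, l, avg, Pi.mul_apply]
      rw [← Equiv.sum_comp (MulAut.conjNormal t).toEquiv]
      refine congrArg _ (Finset.sum_congr rfl fun n _ => ?_)
      rw [show ((MulAut.conjNormal t).toEquiv n : G) * (t * pq p g * t⁻¹) = t * (n * pq p g) * t⁻¹ by
        simp [mul_assoc], hψ.isClassFunction, h.can_conj (not_dvd_relIndex_of_le le_sup_left (sup_le le_sup_left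
        (zpowers_le.2 (mul_mem (mem_sup_left n.2) (mem_sup_right (mem_zpowers _))))) (i _ (h2 _ (isPRegular_pq g))))
        a t (ht t)]
    · obtain ⟨-, f, -, hf⟩ := exists_pp_hom p E
      obtain ⟨ω, -, hω⟩ := h1 (E.subtype.comp f).range (Group.isSolvable_of_surjective
        (E.subtype.comp f).rangeRestrict_surjective) (not_dvd_card_of_forall (by
          rintro _ ⟨x, rfl⟩
          show IsPRegular p ((f x : E) : G)
          rw [hf, ← pq_coe]; exact isPRegular_pq _))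
      have := ((lf_ch ω).comp ((inclusion le_sup_right).comp (E.subtype.comp f).rangeRestrict)).isGen
      convert this using 2 with x
      rw [pq_coe, ← hf]
      exact (hω (inclusion le_sup_right ((E.subtype.comp f).rangeRestrict x))).1
  have h4 : ∀ g, l (pq p g) * conj (l (pq p g)) = 1 := fun g => by
    obtain ⟨ω, -, hω⟩ := h1 _ (solv_zpowers _) (h2 _ (isPRegular_pq g))
    rw [show l _ = _ from (hω ⟨_, mem_sup_right (mem_zpowers _)⟩).1, Complex.mul_conj, Complex.normSq_eq_norm_sq,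
      norm_lin]; simp
  have h5 : l (pq p 1) = 1 := by
    obtain ⟨ω, -, hω⟩ := h1 _ (solv_zpowers _) (h2 _ isPRegular_one)
    rw [pq_one, show l 1 = _ from (hω 1).1]; simp
  obtain ⟨μ, hμ⟩ := (h3.isIrr_of_re_nonneg (by simp [classInner, h4]) (by rw [h5]; simp)).isCharacter.exists_lf h5
  have h6 : ∀ g, IsPRegular p g → (lf μ⁻¹ * ψ)↾↥(N ⊔ zpowers g) = (can M N θ)↾↥(N ⊔ zpowers g) := fun g hg => by
    obtain ⟨ω, k, hω⟩ := h1 _ (solv_zpowers _) (h2 _ hg)
    funext y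
    have h7 : (ω y : ℂ) = μ y := by
      rw [← lf_apply μ, ← congrFun hμ y, pq_coe, (hω _).1]
      nth_rw 1 [← pp_mul_pq (p := p) y]
      rw [map_mul, mem_triv.1 k _ ((QuotientGroup.eq_one_iff _).1 (eq_one_of_isPElt_of_isPRegular
        ((isPElt_pp y).map (QuotientGroup.mk' _)) fun e => i _ (h2 _ hg) (e.trans (orderOf_dvd_natCard _)))), one_mul]
    simp [(hω y).2, h7]
  have h7 : (lf μ⁻¹ * ψ)↾N = θ↾N := (res_eq_mono (h6 1 isPRegular_one) le_sup_left).trans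
    (h.can_solv (solv_zpowers _) (i _ (h2 _ isPRegular_one)) a).2
  refine ⟨_, hψ.lf_mul μ⁻¹, h7, fun J hJ => h.inB0 hJ (irr_of_res ((hψ.lf_mul μ⁻¹).isCharacter.res J) hJ
    (h7 ▸ a.irr)) fun g _ hg => ?_⟩
  rw [InB0, h6 g hg]
  exact (h.can_solv (solv_zpowers _) (i _ (h2 _ hg)) a).1

theorem AD2.eq_of_dt {χ ψ : G → ℂ} (a : Irr N χ↾N) (d : ¬ p ∣ dg χ) (c : Ch G χ) (c' : Ch G ψ) (e : ψ↾N = χ↾N)
    (b : ∀ g, IsPRegular p g → InB0 M (N ⊔ zpowers g) χ) (b' : ∀ g, IsPRegular p g → InB0 M (N ⊔ zpowers g) ψ)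
    (r : IsPRegular p (dt χ)) (r' : IsPRegular p (dt ψ)) : ψ = χ := by
  obtain ⟨l, hl, rfl⟩ := exists_lf_of_ext c a c' e
  have h1 : ∀ g, IsPRegular p g → l g = 1 := fun g hg => by
    have i := not_dvd_relIndex_zpowers (N := N) hg
    exact DFunLike.congr_fun (h.eq_one le_rfl le_sup_left i ((b g hg).rr le_sup_left i)
      (ω := l.comp (Subgroup.subtype _)) (mem_triv.2 fun u hu => mem_triv.1 hl _ hu) (h.uniq le_sup_left i a
      (c.res _) (b' g hg).irr (by rw [e, a.inner_self]; exact one_ne_zero) ((b g hg).rr le_sup_left i)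
      ((b' g hg).rr le_sup_left i)).symm) ⟨g, mem_sup_right (mem_zpowers g)⟩
  rw [c.dt_lf_mul] at r'
  rw [eq_one_of_reg_mul d (isPElt_lin h1) r r', lf_one]; exact one_mul _

theorem AD2.exists_dt (a : InB0 M N θ) (d : ¬ p ∣ dg θ) (r : IsPRegular p (dt θ↾N)) (i : inertia θ↾N = ⊤) :
    ∃ χ, Irr G χ ∧ χ↾N = θ↾N ∧ (∀ J, N ≤ J → InB0 M J χ) ∧ IsPRegular p (dt χ) := by
  obtain ⟨ψ, hψ, e⟩ := ext_of_sylow a.irr i fun q hq => by
    haveI := Fact.mk hq
    obtain ⟨S⟩ : Nonempty (Sylow q G) := inferInstance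
    have h1 : ¬ q ∣ (N ⊔ S.1).index := fun e => S.not_dvd_index (e.trans (index_dvd_of_le le_sup_right))
    obtain ⟨k, hk⟩ := S.2.exists_card_eq
    by_cases hp : q = p
    · subst hp
      obtain ⟨j, -, hj⟩ := (Nat.dvd_prime_pow hq).1 (show N.relIndex (N ⊔ S.1) ∣ q ^ k by
        rw [relIndex_sup_left, ← hk]; exact relIndex_dvd_card N S.1)
      rw [relIndex] at hj
      have b := (irr_sub (le_sup_left : N ≤ N ⊔ S.1)).2 a.irr
      obtain ⟨χ, c, -⟩ := exists_canExt b (inertia_sub_top le_sup_left (inertia_eq_iA.symm.trans i ▸ le_top))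
        (hj ▸ (hq.coprime_iff_not_dvd.2 d).pow_left _) (hj ▸ (hq.coprime_iff_not_dvd.2 (by
          have := a.irr.isCharacter.dt_comp (subgroupOfEquivOfLe (le_sup_left : N ≤ N ⊔ S.1)).toMonoidHom
          exact this ▸ isPRegular_map r (MonoidHom.compHom' _))).pow_left _)
      exact ⟨_, le_sup_left, χ, h1, c.irr, fun n => congrFun c.res ⟨⟨n, mem_sup_left n.2⟩, n.2⟩⟩
    · obtain ⟨b, c⟩ := h.can_solv (H1.isSolvable_of_isPGroup S.2) (not_dvd_relIndex_sup (E := S.1) fun e => hp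
        ((Nat.prime_dvd_prime_iff_eq Fact.out hq).1 ((Fact.out : p.Prime).dvd_of_dvd_pow (hk ▸ e))).symm) a
      exact ⟨_, le_sup_left, _, h1, b.irr, congrFun c⟩
  obtain ⟨χ, b, c, f⟩ := h.exists_ext_of_ext a hψ e
  have d' : dg χ = dg θ := dg_congr (congrFun c 1)
  obtain ⟨l, h0, h1, h4⟩ := exists_pElt_reg (dt χ) (d' ▸ d) (MonoidHom.compHom' N.subtype : (G →* ℂˣ) →* _)
    (by rwa [← c, show dt χ↾N = _ from b.isCharacter.dt_comp N.subtype] at r)
  have h2 : ∀ J, ¬ p ∣ N.relIndex J → (lf l * χ)↾J = χ↾J := fun J hJ => funext fun y => by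
    have : l y = 1 := by
      rw [← pp_mul_pq (p := p) (y : G), map_mul, h0.lin_apply (isPRegular_pq _), mul_one]
      exact DFunLike.congr_fun h1 ⟨_, pp_mem_of_not_dvd hJ y.2⟩
    simp [this]
  have h3 := (h2 N (by simp [(Fact.out : p.Prime).one_lt.ne'])).trans c
  refine ⟨_, b.lf_mul _, h3, fun J hJ => h.inB0 hJ (irr_of_res ((b.lf_mul _).isCharacter.res J) hJ (h3 ▸ a.irr))
    fun g _ hg => ?_, ?_⟩
  · rw [InB0, h2 _ (not_dvd_relIndex_zpowers hg)]; exact f _ le_sup_left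
  · rw [b.isCharacter.dt_lf_mul]; exact h4

end H9
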