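import Cfsg.Agent.H9.IS

/-! Galois-fixed characters of `p'`-degree over `O^p(G)`. -/

set_option autoImplicit false
set_option linter.style.haveILetI false
set_option linter.unusedSectionVars false
set_option maxSynthPendingDepth 3

namespace H9
open Cfsg H3 MonoidAlgebra Subgroup Module
open scoped ComplexConjugate Pointwise

variable {p : ℕ} {G : Type*} [Group G] [Finite G] [hp : Fact p.Prime]

theorem card_lin_pow {N : Subgroup G} [N.Normal] (hc : IsCyclic (G ⧸ N)) (hd : p ∣ N.index) :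
    Nat.card {l : G →* ℂˣ // l ∈ triv N ∧ ∀ g, l g ^ p = 1} = p := by
  letI := IsCyclic.commGroup (α := G ⧸ N)
  have i : ((powMonoidHom p : G ⧸ N →* G ⧸ N).range.comap (QuotientGroup.mk' N)).index = p := by
    rw [index_comap_of_surjective _ (QuotientGroup.mk'_surjective N), IsCyclic.index_powMonoidHom_range]
    exact Nat.gcd_eq_right hd
  refine Eq.trans ?_ ((card_triv _ fun x hx => ?_).trans i)
  swap
  · rw [mem_comap, MonoidHom.mem_ker.1 (Abelianization.commutator_subset_ker (QuotientGroup.mk' N) hx)]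
    exact one_mem _
  refine Nat.card_congr (Equiv.subtypeEquivRight fun l => ?_)
  simp only [mem_triv]
  refine ⟨fun h x ⟨y, hy⟩ => ?_, fun h => ⟨fun x hx => h x ⟨1, ?_⟩, fun g => ?_⟩⟩
  · obtain ⟨y, rfl⟩ := QuotientGroup.mk'_surjective N y
    have : (y ^ p)⁻¹ * x ∈ N := QuotientGroup.eq.1 hy
    have := h.1 _ this
    rwa [map_mul, map_inv, map_pow, h.2, inv_one, one_mul] at this
  · rw [map_one]; exact ((QuotientGroup.eq_one_iff x).2 hx).symm
  · rw [← map_pow]; exact h _ ⟨g, rfl⟩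

theorem card_fib_sigma (hc : IsCyclic (G ⧸ pResidual p G)) (hnt : pResidual p G ≠ ⊤) {k : ℕ}
    (h1 : ∀ g : G, IsPElt p g → g ^ k = g ^ (1 + p)) (h2 : ∀ g : G, IsPRegular p g → g ^ k = g)
    {θ : pResidual p G → ℂ} (hθ : IsIrrCharacter _ θ) (hi : inertia θ = ⊤) (hd : ¬ p ∣ charDegree θ)
    (hk : ∀ n, θ (n ^ k) = θ n) :
    Nat.card {χ : IrrCharacter G // (∀ g, χ.1 (g ^ k) = χ.1 g) ∧ (fun n : pResidual p G => χ.1 n) = θ} = p := by
  haveI := Fintype.ofFinite (pResidual p G)
  haveI := Fintype.ofFinite G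
  obtain ⟨n, i⟩ := H2.index_pResidual (p := p) (G := G)
  have c : ∀ {n}, ¬ p ∣ n → (pResidual p G).index.Coprime n := fun h =>
    i ▸ (hp.out.coprime_iff_not_dvd.2 h).pow_left n
  obtain ⟨χ, b, -⟩ := exists_canExt hθ hi (c hd) (c (not_dvd_orderOf_of_pRes H2.pResidual_pResidual _))
  obtain ⟨σ, hσ⟩ := exists_gal_pow (sigma_one h1 h2).1
  have hχ := b.irr
  have r : ∀ n : pResidual p G, χ n = θ n := congrFun b.res
  have f : ∀ g, χ (g ^ k) = χ g := fun g => by
    have := b.gal σ.toRingHom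
    rw [show (fun x => σ.toRingHom (θ x)) = θ from funext fun x => by
      conv_rhs => rw [← hk, ← r]
      rw [← r]; exact hσ _ hχ.isGen _] at this
    rw [← hσ _ hχ.isGen]
    exact congrFun (CanExt.unique hθ (c hd) this b) g
  have hp' : IsIrrCharacter _ fun n : pResidual p G => χ n := b.res ▸ hθ
  have q : ∀ l : G →* ℂˣ, l ∈ triv (pResidual p G) → ∀ g, l (g ^ k) = l g * l g ^ p := fun l hl g => by
    have e : ∀ x, IsPRegular p x → l x = 1 := fun x hx => mem_triv.1 hl x (mem_pResidual_of_reg hx)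
    have e' : l g = l (pp p g) := by rw [← mul_one (l (pp p g)), ← e _ (isPRegular_pq g), ← map_mul, pp_mul_pq]
    rw [map_pow, e', ← map_pow, h1 _ (isPElt_pp g), pow_add, pow_one, map_mul, map_pow]
  have t : ∀ l : G →* ℂˣ, l ∈ triv (pResidual p G) → ∀ n ∈ pResidual p G, lf l n = lf l 1 := fun l hl n hn => by
    simp [mem_triv.1 hl n hn]
  refine Eq.trans ?_ (card_lin_pow hc (i ▸ dvd_pow_self p (by rintro rfl; exact hnt (index_eq_one.1 i))))
  refine (Nat.card_eq_of_bijective (fun l => ⟨⟨lf l.1 * χ, gallagher_irr' hχ.isCharacter hp' (lf_irr _) (t _ l.2.1)⟩,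
    fun g => by simp [q _ l.2.1, l.2.2, f], funext fun n => by simp [mem_triv.1 l.2.1 n n.2, r]⟩)
    ⟨fun l l' e => ?_, fun ⟨ψ, h3, h4⟩ => ?_⟩).symm
  · exact Subtype.ext (lf_injective (gallagher_inj hχ.isCharacter hp' (lf_irr _).isCharacter (lf_irr _).isCharacter
      (t _ l.2.1) (t _ l'.2.1) (congrArg (·.1.1) e)))
  · obtain ⟨β, hβ, b1, e⟩ := gallagher hχ.isCharacter hp' ψ.2 (by
      rw [h4, b.res, hθ.inner_self]; exact one_ne_zero)
    have d : β 1 = 1 := by
      have := congrFun e 1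
      rw [Pi.mul_apply, show ψ.1 1 = θ 1 from congrFun h4 1, ← r 1] at this
      exact (mul_eq_right₀ hχ.deg_ne_zero).1 this
    obtain ⟨l, rfl⟩ := hβ.isCharacter.exists_lf d
    have hl : l ∈ triv (pResidual p G) := mem_triv.2 fun n hn => by simpa using b1 n hn
    refine ⟨⟨l, hl, fun g => ?_⟩, Subtype.ext (Subtype.ext e)⟩
    have := gallagher_inj hχ.isCharacter hp' (lf_irr (l ^ (p + 1))).isCharacter (lf_irr l).isCharacter
      (t _ (pow_mem hl _)) b1 (funext fun g => by
        have := h3 g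
        rw [← e] at this
        simpa [q _ hl, f, pow_succ'] using this)
    simpa [pow_succ'] using congrArg (fun l => l g) (lf_injective this)

end H9
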