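import Cfsg.Agent.H9.SL2c
import Cfsg.Agent.H4.Max2
import Cfsg.Agent.S0071
import Cfsg.Agent.S0205

/-! Groups all of whose non-abelian subgroups are self-normalizing. -/

set_option autoImplicit false
set_option linter.style.haveILetI false
set_option linter.unusedSectionVars false

namespace H9
open Cfsg Subgroup H7 OnePoint
open scoped MatrixGroups H4

def SNA (G : Type*) [Group G] : Prop := ∀ H : Subgroup G, ¬ IsMulCommutative H → normalizer (H : Set G) = H

section
variable {G G' : Type*} [Group G] [Group G'] {H : Subgroup G} {g : G}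

theorem SNA.comm (h : SNA G) (hg : g ∈ nrm H) (hn : g ∉ H) : H ≤ cen H := fun a ha b hb => by
  by_contra e
  exact hn ((h H fun c => e (congrArg Subtype.val (c.1.1 ⟨b, hb⟩ ⟨a, ha⟩))).le hg)

theorem sna_of (h : ∀ H : Subgroup G, ∀ a ∈ H, ∀ b ∈ H, a * b ≠ b * a → nrm H ≤ H) : SNA G := fun H c =>
  le_antisymm (by
    by_contra e
    exact c ⟨⟨fun a b => Subtype.ext (by_contra fun r => e (h H a a.2 b b.2 r))⟩⟩) le_normalizer

theorem SNA.of_inj (h : SNA G') (e : G →* G') (he : Function.Injective e) : SNA G :=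
  sna_of fun H a ha b hb r g hg => by_contra fun n => r (he (by
    rw [map_mul, map_mul]
    exact h.comm (H := H.map e) (g := e g) (le_normalizer_map _ ⟨g, hg, rfl⟩) (by rwa [mem_map_iff_mem he]) ⟨b, hb, rfl⟩ _ ⟨a, ha, rfl⟩))

theorem SNA.ker (h : SNA G) (φ : G →* G') (hg : φ g ≠ 1) : φ.ker ≤ cen φ.ker :=
  h.comm (normalizer_eq_top φ.ker ▸ mem_top g) hg

open scoped IsMulCommutative in
theorem SNA.of_center [Finite G] (h : SNA G) (T : Sylow 2 G) (c : (T : Subgroup G) ≤ cen T) (nc : ¬ IsCyclic T)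
    (z : g ∈ center G) (o : orderOf g = 2) : IsMulCommutative G := by
  haveI : IsMulCommutative T := ⟨⟨fun a b => Subtype.ext (c b.2 a a.2)⟩⟩
  have O1 : pResidual 2 G ≤ cen (pResidual 2 G) := by
    have := H2.pResidual_le_ker T.2 (MonoidHom.transfer (MonoidHom.id T))
    refine this.trans ((h.ker _ (g := g) fun e => ?_).trans (centralizer_le this))
    rw [MonoidHom.transfer_eq_pow _ g fun k g₀ _ => by
      rw [mul_assoc, ← mem_center_iff.1 (pow_mem z k), inv_mul_cancel_left]] at e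
    have := orderOf_dvd_of_pow_eq_one (x := g) (congrArg Subtype.val e)
    exact T.not_dvd_index (by rwa [o] at this)
  have O2 : ∀ x ∈ pResidual 2 G, (orderOf x).Coprime 2 := fun x hx => closure_induction (fun _ h => h) (by simp)
    (fun x y hx hy a b => (a.mul_left b).coprime_dvd_left (Commute.orderOf_mul_dvd_mul_orderOf (O1 hy x hx))) (by simp) hx
  have O3 : (T : Subgroup G) ≤ cen (pResidual 2 G) := fun s hs y hy => by_contra fun r => nc <| by
    refine (Subgroup.isCyclic_iff_exists_zpowers_eq_top _).2 ⟨s, le_antisymm (zpowers_le.2 hs) fun u hu => ?_⟩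
    have : u ∈ pResidual 2 G ⊔ zpowers s := by_contra fun n => r (h.comm (nrm_sup (le_top.trans (normalizer_eq_top _).ge)
      (c.trans ((centralizer_le (zpowers_le.2 hs)).trans (centralizer_le_normalizer _))) hu) n
      (mem_sup_right (mem_zpowers s)) y (mem_sup_left hy))
    obtain ⟨a, ha, b, hb, rfl⟩ := mem_sup_of_normal_left.1 this
    obtain ⟨k, hk⟩ := T.2 ⟨a, (mul_mem_cancel_right (zpowers_le.2 hs hb)).1 hu⟩
    rwa [H2.eq_one_of_coprime_of_pow (x := a) (congrArg Subtype.val hk) (O2 a ha), one_mul]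
  have e := H2.pResidual_sup_sylow T
  have : (⊤ : Subgroup G) ≤ cen (⊤ : Subgroup G) := by
    rw [← e]
    exact sup_le (le_centralizer_iff.2 (sup_le O1 O3)) (le_centralizer_iff.2 (sup_le (le_centralizer_iff.1 O3) c))
  exact ⟨⟨fun a b => this (mem_top b) a (mem_top a)⟩⟩

theorem SNA.max [Finite G] (h : SNA G) [H.Normal] (hH : IsPGroup 2 H) (o : (orderOf g).Coprime 2) (n : g ∉ cen H)
    (mx : ∀ R : Subgroup G, IsPGroup 2 R → H ≤ R → g ∈ nrm R → R ≤ H) (S : Sylow 2 G) : H ≤ cen H ∧ (S : Subgroup G) ≤ H := by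
  have c : H ≤ cen H := h.comm (normalizer_eq_top H ▸ mem_top g) fun hg => n <| by
    obtain ⟨k, hk⟩ := hH ⟨g, hg⟩
    rw [H2.eq_one_of_coprime_of_pow (x := g) (congrArg Subtype.val hk) o]; exact one_mem _
  refine ⟨c, fun s hs => by_contra fun sn => ?_⟩
  have cc : cen H ≤ cen (cen H) := h.comm (normalizer_eq_top (cen H) ▸ mem_top g) n
  let R : Subgroup G :=
    { carrier := {x | x ∈ cen H ∧ ∃ k, x ^ 2 ^ k = 1}
      one_mem' := ⟨one_mem _, 0, by simp⟩
      mul_mem' := by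
        rintro x y ⟨hx, k, ek⟩ ⟨hy, l, el⟩
        exact ⟨mul_mem hx hy, k + l, by
          rw [Commute.mul_pow (cc hy x hx), pow_add, pow_mul, ek, mul_comm (2 ^ k), pow_mul, el]; simp⟩
      inv_mem' := by rintro x ⟨hx, k, ek⟩; exact ⟨inv_mem hx, k, by rw [inv_pow, ek, inv_one]⟩ }
  have hR : R ≤ H := mx R (fun x => x.2.2.imp fun k e => Subtype.ext e)
    (fun x hx => ⟨c hx, (hH ⟨x, hx⟩).imp fun k e => congrArg Subtype.val e⟩)
    (mem_normalizer_fintype (S := (R : Set G)) fun x hx => ⟨Normal.conj_mem inferInstance x hx.1 g,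
      hx.2.imp fun k e => by rw [conj_pow, e]; simp⟩)
  have l : H ⊔ zpowers s ≤ S := sup_le (hH.le_sylow_of_normal S) (zpowers_le.2 hs)
  have e : H ⊔ zpowers s = S := by_contra fun r => by
    obtain ⟨x, hx, xn⟩ := SetLike.exists_of_lt (H2.lt_inf_normalizer S.2 (l.lt_of_ne r))
    exact sn (hR ⟨centralizer_le (SetLike.coe_subset_coe.2 le_sup_left) (h.comm hx.2 xn (mem_sup_right (mem_zpowers s))),
      (S.2 ⟨s, hs⟩).imp fun k e => congrArg Subtype.val e⟩)
  let S' := S.mapSurjective (QuotientGroup.mk'_surjective H)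
  have s1 : QuotientGroup.mk' H s ≠ 1 := mt (QuotientGroup.eq_one_iff s).1 sn
  have s2 : QuotientGroup.mk' H s ∈ S' := ⟨s, hs, rfl⟩
  have hc : IsCyclic S' := (Subgroup.isCyclic_iff_exists_zpowers_eq_top _).2 ⟨QuotientGroup.mk' H s, by
    rw [Sylow.coe_mapSurjective, ← e, Subgroup.map_sup, QuotientGroup.map_mk'_self, MonoidHom.map_zpowers, bot_sup_eq]⟩
  have m : (Nat.card (G ⧸ H)).minFac = 2 := (Nat.minFac_eq_two_iff _).2 <| by
    by_contra r
    exact s1 (mem_bot.1 ((S'.2.card_eq_or_dvd.elim (eq_bot_of_card_eq _) fun d =>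
      absurd (d.trans (card_subgroup_dvd_card _)) r).le s2))
  let φ := (MonoidHom.transferSylow S' (hc.normalizer_le_centralizer m)).comp (QuotientGroup.mk' H)
  refine n fun x hx => h.ker φ (g := s) (fun e => s1 ?_) (H2.pResidual_le_ker S'.2 φ (H2.mem_pResidual_of_coprime o)) x ?_
  · exact disjoint_def.1 (hc.isComplement' m).disjoint e s2
  · simp [φ, (QuotientGroup.eq_one_iff x).2 hx]

theorem SNA.syl [Finite G] (h : SNA G) (P : Sylow 2 G) (n : ¬ ∃ N : Subgroup G, N.Normal ∧ N.IsComplement' P) :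
    (P : Subgroup G) ≤ cen P := by
  rw [Agent.S0071.result P] at n
  push Not at n
  obtain ⟨Q, hQ, g, hg, o, c⟩ := n
  obtain ⟨Q, ⟨hQ, g, hg, o, c⟩, mx⟩ := (Set.toFinite {Q : Subgroup G | IsPGroup 2 Q ∧ ∃ g ∈ nrm Q,
    (orderOf g).Coprime 2 ∧ g ∉ cen Q}).exists_maximal ⟨Q, P.2.to_le hQ, g, hg, o, c⟩
  obtain ⟨S, hS⟩ := hQ.exists_le_sylow
  obtain ⟨T, hT⟩ := (S.2.comap_subtype (K := nrm Q)).exists_le_sylow
  obtain ⟨k1, k2⟩ := (h.of_inj _ (nrm Q).subtype_injective).max (H := Q.subgroupOf (nrm Q)) (g := ⟨g, hg⟩)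
    hQ.comap_subtype (by simpa using o) (fun e => c fun x hx => congrArg Subtype.val (e ⟨x, le_normalizer hx⟩ hx))
    (fun R h1 h2 h3 => by
      have l : Q ≤ R.map (nrm Q).subtype := fun x hx => ⟨⟨x, le_normalizer hx⟩, h2 hx, rfl⟩
      exact fun x hx => mx ⟨h1.map _, g, le_normalizer_map _ ⟨_, h3, rfl⟩, o, fun e => c (centralizer_le l e)⟩ l ⟨x, hx, rfl⟩) T
  have e : Q = S := by_contra fun r => by
    obtain ⟨x, hx, xn⟩ := SetLike.exists_of_lt (H2.lt_inf_normalizer S.2 (hS.lt_of_ne r))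
    exact xn (k2 (hT (x := ⟨x, hx.2⟩) hx.1))
  subst e
  intro a ha b hb
  have := k1 (x := ⟨(P.equiv S ⟨a, ha⟩).1, le_normalizer (P.equiv S _).2⟩) (P.equiv S _).2
    ⟨(P.equiv S ⟨b, hb⟩).1, le_normalizer (P.equiv S _).2⟩ (P.equiv S _).2
  exact congrArg Subtype.val ((P.equiv S).injective (a₁ := ⟨b, hb⟩ * ⟨a, ha⟩) (a₂ := ⟨a, ha⟩ * ⟨b, hb⟩)
    (by rw [map_mul, map_mul]; exact Subtype.ext (by simpa using this)))

theorem SNA.psl [Finite G] [IsSimpleGroup G] (h : SNA G) (hG : ¬ IsMulCommutative G) :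
    ∃ n, 2 ≤ n ∧ Nonempty (G ≃* PSL(2, GaloisField 2 n)) := by
  have hZ : center G = ⊥ := (IsSimpleGroup.eq_bot_or_eq_top_of_normal _ inferInstance).resolve_right fun e =>
    hG ⟨⟨fun a b => mem_center_iff.1 (e.ge trivial) a⟩⟩
  have ev : 2 ∣ Nat.card G := by
    by_contra h2
    haveI := Cfsg.Agent.S0205.result (G := G) (Nat.odd_iff.2 (by omega))
    exact hG ⟨⟨IsSimpleGroup.comm_iff_isSolvable.2 this⟩⟩
  have P1 : ∀ P : Sylow 2 G, (P : Subgroup G) ≠ ⊥ := fun P => P.ne_bot_of_dvd_card ev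
  have P2 : ∀ P : Sylow 2 G, (P : Subgroup G) ≠ ⊤ := fun P e => by
    have hp : IsPGroup 2 G := (e ▸ P.2 : IsPGroup 2 (⊤ : Subgroup G)).of_equiv topEquiv
    haveI := hp.center_nontrivial
    rw [hZ] at this
    exact not_nontrivial _ this
  have n : ∀ P : Sylow 2 G, ¬ ∃ N : Subgroup G, N.Normal ∧ N.IsComplement' P := fun P ⟨N, hN, c⟩ => by
    rcases hN.eq_bot_or_eq_top with rfl | rfl
    · exact P2 P (by simpa using c.sup_eq_top)
    · exact P1 P (by simpa using c.disjoint)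
  have nc : ∀ P : Sylow 2 G, ¬ IsCyclic P := fun P hc =>
    n P ⟨_, inferInstance, hc.isComplement' ((Nat.minFac_eq_two_iff _).2 ev)⟩
  obtain ⟨P⟩ : Nonempty (Sylow 2 G) := inferInstance
  obtain ⟨n, n2, -, e⟩ := sl2_of_ac (fun t ht => by
    obtain ⟨T, hT⟩ := (IsPGroup.of_card (p := 2) (n := 1) (G := zpowers t) (by simp [ht])).exists_le_sylow
    have c := h.syl T (n T)
    have l : (T : Subgroup G) ≤ centralizer {t} := fun x hx => mem_centralizer_singleton_iff.2
      (c (hT (mem_zpowers t)) x hx)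
    exact (h.of_inj _ (subtype_injective _)).of_center (T.subtype l) (fun a ha b hb => Subtype.ext (c ha b hb))
      (fun hc => nc T ((subgroupOfEquivOfLe l).isCyclic.1 hc))
      (g := ⟨t, mem_centralizer_singleton_iff.2 rfl⟩)
      (mem_center_iff.2 fun x => Subtype.ext (mem_centralizer_singleton_iff.1 x.2)) (by simpa using ht)) P (nc P)
    (fun hn => hn.eq_bot_or_eq_top.elim (P1 P) (P2 P)) hZ
  exact ⟨n, n2, e⟩

end

section pgl
open H4
variable {F : Type*} [Field F] [Finite F]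

theorem prime_of_sna (h : SNA PGL(2, F)) (h3 : 3 ≤ Nat.card F) : (Nat.card F - 1).Prime := by
  classical
  by_contra hn
  have hl := Nat.minFac_prime (n := Nat.card F - 1) (by omega)
  haveI := Fact.mk hl
  obtain ⟨a, ha⟩ := exists_prime_orderOf_dvd_card' (G := Fˣ) (Nat.card F - 1).minFac
    (by rw [Nat.card_units]; exact Nat.minFac_dvd _)
  obtain ⟨c, hc⟩ : ∃ c, c ∉ zpowers a := by
    by_contra! H
    exact hn (by rwa [← ha, orderOf_eq_card_of_forall_mem_zpowers H, Nat.card_units] at hl)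
  let H : Subgroup PGL(2, F) :=
    { carrier := {g | ∃ u ∈ zpowers a, ∃ b, g = aff u b}
      one_mem' := ⟨1, one_mem _, 0, aff_one.symm⟩
      mul_mem' := by rintro _ _ ⟨u, hu, b, rfl⟩ ⟨v, hv, d, rfl⟩; exact ⟨_, mul_mem hu hv, _, aff_mul ..⟩
      inv_mem' := by rintro _ ⟨u, hu, b, rfl⟩; exact ⟨_, inv_mem hu, _, aff_inv ..⟩ }
  have := h.comm (H := H) (g := aff c 0) (mem_normalizer_fintype (S := (H : Set PGL(2, F))) (by
    rintro _ ⟨u, hu, b, rfl⟩
    exact ⟨u, hu, _, by rw [aff_inv, aff_mul, aff_mul, mul_inv_cancel_comm]⟩)) (by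
    rintro ⟨u, hu, b, e⟩; exact hc ((aff_inj e).1 ▸ hu)) ⟨a, mem_zpowers a, 0, rfl⟩ _ ⟨1, one_mem _, 1, rfl⟩
  rw [aff_mul, aff_mul] at this
  have := (aff_inj this).2
  exact hl.ne_one (by rw [← ha, orderOf_eq_one_iff]; ext; simpa using this.symm)

theorem sna_pgl [CharP F 2] (hq : (Nat.card F - 1).Prime) [IsSimpleGroup PGL(2, F)] : SNA PGL(2, F) := by
  classical
  refine sna_of fun H a ha b hb ab => ?_
  have ev : Even (Nat.card F) := even_iff_two_dvd.2 (char_dvd_card 2)
  by_cases hL : Lsub F ≤ nrm H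
  · rw [Lsub_eq_top ev, top_le_iff, normalizer_eq_top_iff] at hL
    rcases hL.eq_bot_or_eq_top with rfl | rfl
    · exact absurd (by rw [mem_bot.1 ha, mem_bot.1 hb]) ab
    · exact le_top
  have l : H ≤ nrm H := le_normalizer
  rcases dickson_proper (p := 2) hL with ⟨x, h⟩ | ⟨x, y, n, s, h⟩ | ⟨k, m, hk, h⟩ | ⟨h, h'⟩ | ⟨h, h'⟩
  · obtain ⟨m, rfl⟩ := exists_smul_infty x
    have mu : ∀ (a : Fˣ) (b : F) (a' : Fˣ) (b' : F), m * aff a b * m⁻¹ * (m * aff a' b' * m⁻¹) = m * aff (a * a') (a * b' + b) * m⁻¹ := fun a b a' b' => by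
      rw [← aff_mul]; group
    have iv : ∀ (a : Fˣ) (b : F), (m * aff a b * m⁻¹)⁻¹ = m * aff a⁻¹ (-(a⁻¹ * b)) * m⁻¹ := fun a b => by rw [← aff_inv]; group
    obtain ⟨a1, b1, rfl⟩ := fix_iff_aff.1 (h a (l ha))
    obtain ⟨a2, b2, rfl⟩ := fix_iff_aff.1 (h b (l hb))
    haveI : Fact (Nat.card Fˣ).Prime := ⟨Nat.card_units F ▸ hq⟩
    have sl : slopes H m = ⊤ := (slopes H m).eq_bot_or_eq_top_of_prime_card.resolve_left fun e => ab (by
      obtain rfl := mem_bot.1 (e.le ⟨b1, ha⟩)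
      obtain rfl := mem_bot.1 (e.le ⟨b2, hb⟩)
      simp [mu, add_comm])
    obtain ⟨c, hc, c0⟩ : ∃ c, m * aff 1 c * m⁻¹ ∈ H ∧ c ≠ 0 := by
      have := mul_mem (mul_mem ha hb) (inv_mem (mul_mem hb ha))
      replace ab := mul_inv_eq_one.not.2 ab
      rw [mu, mu, iv, mu, mul_comm a1, mul_inv_cancel] at this ab
      exact ⟨_, this, fun e => ab (by rw [e, aff_one]; simp)⟩
    have tr : ∀ d, m * aff 1 d * m⁻¹ ∈ H := fun d => by
      by_cases d0 : d = 0
      · simp [d0, aff_one]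
      obtain ⟨e, he⟩ := sl.ge (mem_top (Units.mk0 (d / c) (div_ne_zero d0 c0)))
      have := mul_mem (mul_mem he hc) (inv_mem he)
      rw [mu, iv, mu] at this
      convert this using 4
      · simp
      · simp; field_simp; ring
    intro g hg
    obtain ⟨u, v, rfl⟩ := fix_iff_aff.1 (h g hg)
    obtain ⟨e, he⟩ := sl.ge (mem_top u)
    simpa [mu] using mul_mem (tr (v - e)) he
  · obtain ⟨w, hw, w1, w2⟩ : ∃ w ∈ H, w • x = y ∧ w • y = x := by
      by_contra! r
      exact ab (Tsub_comm s.1 ((h (l ha)).resolve_right fun e => r a ha e.1 e.2) ((h (l hb)).resolve_right fun e => r b hb e.1 e.2))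
    obtain ⟨j, hj⟩ : Odd n := by
      have := Nat.card_pos (α := F)
      rw [Nat.odd_iff]; rw [Nat.even_iff] at ev; have := s.cases; omega
    have k : ∀ g ∈ nrm H, g ∈ Tsub x y → g ∈ H := fun g hg ht => by
      have := mul_mem ((mem_normalizer_iff.1 hg w).1 hw) (inv_mem hw)
      rw [mul_assoc, mul_assoc, ← mul_assoc w, (swap_inverts s.1 (inv_mem ht) w1 w2).2, inv_inv, ← sq] at this
      have := pow_mem this (j + 1)
      rwa [← pow_mul, show 2 * (j + 1) = n + 1 by omega, pow_succ, ← s.card_T,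
        orderOf_dvd_iff_pow_eq_one.1 (orderOf_dvd_natCard _ ht), one_mul] at this
    intro g hg
    obtain e | e := h hg
    · exact k g hg e
    · exact (mul_mem_cancel_right hw).1 (k _ (mul_mem hg (l hw)) ⟨by rw [mul_smul, w1, e.2], by rw [mul_smul, w2, e.1]⟩)
  · have d : Nat.card k - 1 ∣ Nat.card F - 1 := by
      rw [← Nat.card_units, ← Nat.card_units]
      exact card_dvd_of_injective (Units.map k.subtype.toMonoidHom) (Units.map_injective k.subtype.injective)
    have k2 : Nat.card k = 2 := by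
      have := Finite.one_lt_card (α := k)
      have := Finite.one_lt_card (α := F)
      rcases (Nat.dvd_prime hq).1 d with e | e
      · omega
      · exact absurd (SetLike.coe_injective (Set.eq_of_subset_of_ncard_le (Set.subset_univ _) (by
          rw [Subfield.coe_top, Set.ncard_univ, ← Nat.card_coe_set_eq]; exact le_of_eq (by change _ = Nat.card k; omega)))) hk
    have c : Nat.card (nrm H) ∣ 6 := by
      have : nrm H ≤ H2.cj m (pglSub k.subtype) := by
        rcases h with h | h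
        exacts [h.le, h.le.trans (H2.cj_mono _ (pslSub_le_pglSub _))]
      have := card_dvd_of_le this
      rwa [H2.card_cj, card_pglSub, k2] at this
    by_contra r
    have c1 := (card_dvd_of_le l).trans c
    have c2 := (card_le_of_le l).lt_of_ne fun e => r (eq_of_le_of_card_ge l e.ge).ge
    have c3 := Nat.le_of_dvd (by norm_num) c
    haveI : IsCyclic H := by
      have : Nat.card H = 1 ∨ Nat.card H = 2 ∨ Nat.card H = 3 := by
        have : Nat.card H < 6 := by omega
        interval_cases Nat.card H <;> simp_all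
      rcases this with e | e | e
      exacts [by haveI := (Nat.card_eq_one_iff_unique.1 e).1; exact isCyclic_of_subsingleton, isCyclic_of_prime_card e, isCyclic_of_prime_card e]
    exact ab (congrArg Subtype.val (IsCyclic.commGroup.mul_comm (⟨a, ha⟩ : H) ⟨b, hb⟩))
  · rcases h' with e | e
    exacts [absurd (by rw [card_of_a4 e]; norm_num) h, absurd (by rw [card_of_s4 e]; norm_num) h]
  · exact absurd (by rw [card_of_a5 h']; norm_num) (h.resolve_left (by norm_num))

end pgl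

end H9
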