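import Cfsg.Agent.H9.Misc4
import Cfsg.Agent.H9.Cyc4

/-! Symmetric local algebras with small centre are commutative; blocks with `l = 1`, `k ≤ 4`. -/

set_option autoImplicit false
set_option linter.style.haveILetI false
set_option linter.unusedSectionVars false

namespace H9
open Cfsg H3 MonoidAlgebra Module

section alg
variable {k A : Type*} [Field k] [Ring A] [Algebra k A] [FiniteDimensional k A] {J X Y S : Submodule k A}

theorem exists_span_one (h : X ≤ Y) (hd : finrank k Y ≤ finrank k X + 1) : ∃ a ∈ Y, Y ≤ (k ∙ a) ⊔ X := by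
  by_cases e : Y ≤ X
  · exact ⟨0, zero_mem _, e.trans le_sup_right⟩
  obtain ⟨a, ha, hx⟩ := SetLike.not_le_iff_exists.1 e
  have l : (k ∙ a) ⊔ X ≤ Y := sup_le ((Submodule.span_singleton_le_iff_mem _ _).2 ha) h
  have := Submodule.finrank_lt_finrank_of_lt (lt_of_le_of_ne (le_sup_right (a := k ∙ a) (b := X)) fun e =>
    hx (e.ge (Submodule.mem_sup_left (Submodule.mem_span_singleton_self a))))
  exact ⟨a, ha, (Submodule.eq_of_le_of_finrank_le l (by omega)).ge⟩

theorem exists_span_two (h : X ≤ Y) (hd : finrank k Y ≤ finrank k X + 2) :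
    ∃ a ∈ Y, ∃ b ∈ Y, Y ≤ (k ∙ b) ⊔ ((k ∙ a) ⊔ X) := by
  by_cases e : Y ≤ X
  · exact ⟨0, zero_mem _, 0, zero_mem _, e.trans (le_sup_right.trans le_sup_right)⟩
  obtain ⟨a, ha, hx⟩ := SetLike.not_le_iff_exists.1 e
  have l : (k ∙ a) ⊔ X ≤ Y := sup_le ((Submodule.span_singleton_le_iff_mem _ _).2 ha) h
  have := Submodule.finrank_lt_finrank_of_lt (lt_of_le_of_ne (le_sup_right (a := k ∙ a) (b := X)) fun e =>
    hx (e.ge (Submodule.mem_sup_left (Submodule.mem_span_singleton_self a))))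
  obtain ⟨b, hb, h'⟩ := exists_span_one l (by omega)
  exact ⟨a, ha, b, hb, h'⟩

theorem exists_soc {n : ℕ} (hn : J ^ n = ⊥) (hX : X ≠ ⊥) (h : X * J ≤ X) : ∃ x ∈ X, x ≠ 0 ∧ ∀ y ∈ J, x * y = 0 := by
  have e : ∃ m, X * J ^ m = ⊥ := ⟨n, by rw [hn, Submodule.mul_bot]⟩
  classical
  obtain ⟨m, hm⟩ := Nat.exists_eq_succ_of_ne_zero (n := Nat.find e) fun h0 => hX (by simpa [h0] using Nat.find_spec e)
  obtain ⟨x, hx, h0⟩ := (Submodule.ne_bot_iff _).1 (Nat.find_min e (m := m) (by omega))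
  have l : ∀ m, X * J ^ m ≤ X := fun m => by
    induction m with
    | zero => simp
    | succ m ih => rw [pow_succ, ← mul_assoc]; exact (mul_le_mul_left ih J).trans h
  refine ⟨x, l m hx, h0, fun y hy => ?_⟩
  have := Nat.find_spec e
  rw [hm, pow_succ, ← mul_assoc] at this
  exact this.le (Submodule.mul_mem_mul hx hy)

theorem nak {n : ℕ} (hn : J ^ n = ⊥) (h : X ≤ X * J) : X = ⊥ := by
  have l : ∀ m, X ≤ X * J ^ m := fun m => by
    induction m with
    | zero => simp
    | succ m ih => rw [pow_succ, ← mul_assoc]; exact h.trans (mul_le_mul_left ih J)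
  simpa [hn] using l n

theorem le_of_gen {n : ℕ} (hn : J ^ n = ⊥) (hJ : J * J ≤ J) (h1 : S ≤ J) (h2 : S * S ≤ S) (h : J ≤ S ⊔ J * J) : J ≤ S := by
  have p1 : ∀ m, J ^ (m + 1) ≤ J := fun m => by
    induction m with
    | zero => simp
    | succ m ih => rw [pow_succ]; exact (mul_le_mul_left ih J).trans hJ
  have l : ∀ m, J ≤ S ⊔ J ^ (m + 1) := fun m => by
    induction m with
    | zero => simp
    | succ m ih =>
      refine h.trans (sup_le le_sup_left ((mul_le_mul' ih ih).trans ?_))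
      rw [Submodule.sup_mul, Submodule.mul_sup, Submodule.mul_sup]
      refine sup_le (sup_le (h2.trans le_sup_left) (le_sup_of_le_right ?_))
        (sup_le (le_sup_of_le_right ?_) (le_sup_of_le_right ?_))
      · rw [pow_succ' J (m + 1)]; exact mul_le_mul_left h1 _
      · rw [pow_succ J (m + 1)]; exact mul_le_mul_right h1 _
      · rw [pow_succ J (m + 1)]; exact mul_le_mul_right (p1 m) _
  simpa [pow_succ, hn] using l n

/-- the span of the commutators -/
def cms (J : Submodule k A) : Submodule k A := Submodule.span k {z | ∃ x ∈ J, ∃ y ∈ J, z = x * y - y * x}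

theorem mem_cms {x y : A} (hx : x ∈ J) (hy : y ∈ J) : x * y - y * x ∈ cms J := Submodule.subset_span ⟨x, hx, y, hy, rfl⟩

theorem cms_le (h : ∀ x ∈ J, ∀ y ∈ J, x * y - y * x ∈ X) : cms J ≤ X := Submodule.span_le.2 (by
  rintro _ ⟨x, hx, y, hy, rfl⟩; exact h x hx y hy)

theorem cms_eq_bot_of_one {n : ℕ} (hn : J ^ n = ⊥) (hJ : J * J ≤ J) {a : A} (ha : a ∈ J) (h : J ≤ (k ∙ a) ⊔ J * J) :
    cms J = ⊥ := by
  have key : ∀ y, a * y = y * a → ∀ x ∈ J, x * y = y * x := fun y hy x hx => by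
    have := le_of_gen (S := J ⊓ LinearMap.ker (LinearMap.mulRight k y - LinearMap.mulLeft k y)) hn hJ inf_le_left
      (Submodule.mul_le.2 fun u hu v hv => ⟨hJ (Submodule.mul_mem_mul hu.1 hv.1), by
        have h1 : u * y = y * u := by simpa [sub_eq_zero] using hu.2
        have h2 : v * y = y * v := by simpa [sub_eq_zero] using hv.2
        simp [sub_eq_zero, mul_assoc, h2]; rw [← mul_assoc, h1, mul_assoc]⟩)
      (h.trans (sup_le_sup_right ((Submodule.span_singleton_le_iff_mem _ _).2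
        (Submodule.mem_inf.2 ⟨ha, by simpa [sub_eq_zero] using hy⟩)) _)) hx
    simpa [sub_eq_zero] using this.2
  exact eq_bot_iff.2 (cms_le fun x hx y hy => by simpa [sub_eq_zero] using key y (key a rfl y hy).symm x hx)

theorem eight {k : Type*} [Field k] {u v u' v' α γ δ : k} (h1 : α * u = α * u') (h2 : α * v = (γ + 1) * u')
    (h3 : (γ + 1) * u = γ * u') (h4 : (γ + 1) * v = δ * u') (h5 : γ * u = α * v') (h6 : γ * v = (γ + 1) * v')
    (h7 : δ * u = γ * v') (h8 : δ * v = δ * v') : u = 0 ∧ v = 0 := by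
  have e1 : u' = α * v - (γ + 1) * u := by linear_combination h3 - h2
  have e2 : v' = γ * v - δ * u := by linear_combination h7 - h6
  subst e1 e2
  by_cases hD : α * δ - (γ + 1) * γ - 1 = 0
  · by_cases hγ : γ = 0
    · subst hγ
      have hu : u = 0 := by simpa using h3
      refine ⟨hu, ?_⟩
      subst hu
      linear_combination (-δ ^ 2) * h1 - (α * δ + 1) * v * hD
    by_cases hβ : γ + 1 = 0
    · have hv : v = 0 := by linear_combination (-1 : k) * h7 + (δ * u + (1 - γ) * v) * hβ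
      refine ⟨?_, hv⟩
      subst hv
      linear_combination α ^ 2 * h8 - u * (α * δ + 1 + (γ + 1) * γ) * hD - u * γ * (2 + (γ + 1) * γ) * hβ
    have a1 : (γ + 1) ^ 2 * u = α * γ * v := by linear_combination h3
    have a2 : γ ^ 2 * v = (γ + 1) * δ * u := by linear_combination -h7
    refine ⟨mul_left_cancel₀ (mul_ne_zero hγ hβ) ?_, mul_left_cancel₀ (mul_ne_zero hγ hβ) ?_⟩
    · linear_combination (-γ ^ 2) * a1 - α * γ * a2 - γ * (γ + 1) * u * hD
    · linear_combination (-(γ + 1) ^ 2) * a2 - (γ + 1) * δ * a1 - γ * (γ + 1) * v * hD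
  · exact ⟨mul_left_cancel₀ hD (by linear_combination h5 - h3), mul_left_cancel₀ hD (by linear_combination h6 - h4)⟩

theorem mem_sup2 {a b x : A} (hx : x ∈ (k ∙ b) ⊔ ((k ∙ a) ⊔ X)) : ∃ (s t : k), ∃ j ∈ X, x = s • a + t • b + j := by
  obtain ⟨_, h1, _, h2, rfl⟩ := Submodule.mem_sup.1 hx
  obtain ⟨_, h3, j, hj, rfl⟩ := Submodule.mem_sup.1 h2
  obtain ⟨t, rfl⟩ := Submodule.mem_span_singleton.1 h1
  obtain ⟨s, rfl⟩ := Submodule.mem_span_singleton.1 h3
  exact ⟨s, t, j, hj, by abel⟩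

theorem cms_eq_bot {n : ℕ} (hn : J ^ n = ⊥) (hJ : J * J ≤ J) (s : A →ₗ[k] k) (hs : ∀ x y, s (x * y) = s (y * x))
    (nd : ∀ x ∈ J, (∀ y ∈ J, x * y = 0) → s x = 0 → x = 0) (hd : finrank k J ≤ finrank k (cms J) + 3) : cms J = ⊥ := by
  have m := fun {x y : A} (hx : x ∈ J) (hy : y ∈ J) => Submodule.mul_mem_mul hx hy
  have K2 : cms J ≤ J * J := cms_le fun x hx y hy => sub_mem (m hx hy) (m hy hx)
  have sK : cms J ≤ LinearMap.ker s := cms_le fun x _ y _ => by simp [hs x y]
  have soc : ∀ X, X ≤ cms J → X * J ≤ X → X = ⊥ := fun X h1 h2 => by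
    by_contra h
    obtain ⟨x, a, b, c⟩ := exists_soc hn h h2
    exact b (nd x (hJ (K2 (h1 a))) c (sK (h1 a)))
  have l3 : J * J * J ≤ J * J := mul_le_mul_left hJ J
  have l4 : J * J * J * J ≤ J * J * J := mul_le_mul_left l3 J
  by_cases r1 : finrank k J ≤ finrank k (J * J :) + 1
  · obtain ⟨a, ha, h⟩ := exists_span_one hJ r1
    exact cms_eq_bot_of_one hn hJ ha h
  by_cases r3 : finrank k (J * J :) ≤ finrank k (cms J)
  · have e := Submodule.eq_of_le_of_finrank_le K2 r3
    rw [e]; exact soc _ e.ge l3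
  by_cases c3 : J * J * J ≤ cms J
  · have z := soc _ c3 l4
    have : finrank k (J * J :) ≤ 1 := by
      have := LinearMap.finrank_le_finrank_of_injective (f := s.comp (J * J).subtype)
        ((injective_iff_map_eq_zero _).2 fun x hx => Subtype.ext
          (nd x (hJ x.2) (fun y hy => z.le (Submodule.mul_mem_mul x.2 hy)) hx))
      simpa using this
    exact Submodule.finrank_eq_zero.1 (by omega)
  refine absurd ((nak hn ?_).le.trans bot_le) c3
  have e2 : cms J ⊔ J * J * J = J * J := by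
    have := Submodule.finrank_lt_finrank_of_lt (lt_of_le_of_ne (le_sup_left (a := cms J) (b := J * J * J)) fun e =>
      c3 (le_sup_right.trans e.ge))
    exact Submodule.eq_of_le_of_finrank_le (sup_le K2 l3) (by omega)
  obtain ⟨a, ha, b, hb, h⟩ := exists_span_two hJ (by omega)
  have m3 : ∀ {x y : A}, x ∈ J → y ∈ J * J → x * y ∈ J * J * J := fun hx hy => by
    rw [mul_assoc]; exact Submodule.mul_mem_mul hx hy
  have m4 : ∀ {x y : A}, x ∈ J → y ∈ J * J * J → x * y ∈ J * J * J * J := fun hx hy => by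
    rw [mul_assoc, mul_assoc, ← mul_assoc J J J]; exact Submodule.mul_mem_mul hx hy
  have e3 : J * J ≤ (k ∙ (a * b - b * a)) ⊔ J * J * J := e2.ge.trans (sup_le (cms_le fun x hx y hy => by
    obtain ⟨s, t, i, hi, rfl⟩ := mem_sup2 (h hx)
    obtain ⟨s', t', j, hj, rfl⟩ := mem_sup2 (h hy)
    have u := add_mem (J.smul_mem s ha) (J.smul_mem t hb)
    have : (s • a + t • b + i) * (s' • a + t' • b + j) - (s' • a + t' • b + j) * (s • a + t • b + i) =
        (s * t' - t * s') • (a * b - b * a) + (((s • a + t • b) * j - j * (s • a + t • b)) +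
          (i * (s' • a + t' • b + j) - (s' • a + t' • b + j) * i)) := by
      simp only [add_mul, mul_add, smul_mul_assoc, mul_smul_comm, smul_smul, smul_sub, sub_smul]; module
    rw [this]
    exact Submodule.add_mem_sup (Submodule.smul_mem _ _ (Submodule.mem_span_singleton_self _))
      (add_mem (sub_mem (m3 u hj) (Submodule.mul_mem_mul hj u)) (sub_mem (Submodule.mul_mem_mul hi hy) (m3 hy hi))))
    le_sup_right)
  set c := a * b - b * a with hc
  have ex : ∀ {x y : A}, x ∈ J → y ∈ J → ∃ t : k, x * y - t • c ∈ J * J * J := fun hx hy => by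
    obtain ⟨_, h1, j, hj, e⟩ := Submodule.mem_sup.1 (e3 (m hx hy))
    obtain ⟨t, rfl⟩ := Submodule.mem_span_singleton.1 h1
    exact ⟨t, by rw [← e]; simpa using hj⟩
  obtain ⟨α, hα⟩ := ex ha ha
  obtain ⟨γ, hγ⟩ := ex hb ha
  obtain ⟨δ, hδ⟩ := ex hb hb
  have hβ : a * b - (γ + 1) • c ∈ J * J * J := by
    convert hγ using 1
    rw [add_smul, one_smul, hc]; abel
  have key : c * a ∈ J * J * J * J ∧ c * b ∈ J * J * J * J := by
    rw [← Subspace.forall_mem_dualAnnihilator_apply_eq_zero_iff, ← Subspace.forall_mem_dualAnnihilator_apply_eq_zero_iff,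
      ← forall₂_and]
    intro f hf
    rw [Submodule.mem_dualAnnihilator] at hf
    have q : ∀ {x y z : A} {s t : k}, x ∈ J → z ∈ J → x * y - s • c ∈ J * J * J → y * z - t • c ∈ J * J * J →
        s * f (c * z) = t * f (x * c) := fun hx hz h1 h2 => by
      have a1 := hf _ (Submodule.mul_mem_mul h1 hz)
      have a2 := hf _ (m4 hx h2)
      simp only [sub_mul, mul_sub, smul_mul_assoc, mul_smul_comm, map_sub, map_smul, smul_eq_mul, mul_assoc] at a1 a2
      linear_combination a2 - a1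
    exact eight (q ha ha hα hα) (q ha hb hα hβ) (q ha ha hβ hγ) (q ha hb hβ hδ) (q hb ha hγ hα) (q hb hb hγ hβ)
      (q hb ha hδ hγ) (q hb hb hδ hδ)
  refine (mul_le_mul_left e3 J).trans ?_
  rw [Submodule.sup_mul]
  refine sup_le (Submodule.mul_le.2 fun x hx y hy => ?_) le_rfl
  obtain ⟨r, rfl⟩ := Submodule.mem_span_singleton.1 hx
  obtain ⟨s, t, j, hj, rfl⟩ := mem_sup2 (h hy)
  rw [smul_mul_assoc, mul_add, mul_add, mul_smul_comm, mul_smul_comm]
  refine Submodule.smul_mem _ _ (add_mem (add_mem (Submodule.smul_mem _ _ key.1) (Submodule.smul_mem _ _ key.2)) ?_)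
  rw [mul_assoc (J * J)]
  exact Submodule.mul_mem_mul (sub_mem (m ha hb) (m hb ha)) hj

/-- trace forms supported on `e` -/
def trF (k : Type*) {A : Type*} [Field k] [Ring A] [Algebra k A] (e : A) : Submodule k (Dual k A) where
  carrier := {f | (∀ x y, f (x * y) = f (y * x)) ∧ ∀ x, f (e * x) = f x}
  zero_mem' := by simp
  add_mem' := fun h h' => ⟨fun x y => by simp [h.1 x y, h'.1 x y], fun x => by simp [h.2 x, h'.2 x]⟩
  smul_mem' := fun c f h => ⟨fun x y => by simp [h.1 x y], fun x => by simp [h.2 x]⟩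

/-- the corner `ε A ε` -/
def crn (k : Type*) {A : Type*} [Field k] [Ring A] [Algebra k A] (ε : A) : Submodule k A where
  carrier := {x | ε * x = x ∧ x * ε = x}
  zero_mem' := by simp
  add_mem' := fun h h' => ⟨by rw [mul_add, h.1, h'.1], by rw [add_mul, h.2, h'.2]⟩
  smul_mem' := fun c f h => ⟨by rw [mul_smul_comm, h.1], by rw [smul_mul_assoc, h.2]⟩

namespace Wd
variable (w : Wd k A) {i : Fin w.n} {e : A}

theorem exists_pow : ∃ n, LinearMap.ker w.φ.toLinearMap ^ n = ⊥ := by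
  haveI := IsArtinianRing.of_finite k A
  obtain ⟨n, hn⟩ := IsArtinianRing.isNilpotent_jacobson_bot (R := A)
  have l : ∀ x ∈ LinearMap.ker w.φ.toLinearMap, x ∈ Ideal.jacobson (⊥ : Ideal A) := fun x hx =>
    Ideal.mem_jacobson_iff.2 fun y => by
      have hx : w.φ x = 0 := hx
      obtain ⟨u, hu⟩ := (w.nil (y * x) (by rw [map_mul, hx, mul_zero])).isUnit_add_one
      refine ⟨(u⁻¹ : Aˣ), ?_⟩
      rw [mul_assoc, ← mul_add_one, ← hu]; simp
  have : ∀ m, ∀ x ∈ LinearMap.ker w.φ.toLinearMap ^ m, x ∈ Ideal.jacobson (⊥ : Ideal A) ^ m := fun m => by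
    induction m with
    | zero => simp [Submodule.pow_zero]
    | succ m ih =>
      intro x hx
      rw [pow_succ] at hx
      rw [Submodule.pow_succ]
      exact Submodule.mul_induction_on hx (fun a ha b hb => Ideal.mul_mem_mul (ih a ha) (l b hb)) fun _ _ => add_mem
  exact ⟨n, eq_bot_iff.2 fun x hx => by simpa [hn] using this n x hx⟩

theorem exists_sum (he : ∀ a, e * a = a * e) (hee : e * e = e) (hi : w.φ e = Pi.single i 1) :
    ∃ a b : Fin (w.d i) → A, ∑ j, a j * w.ε i * b j = e := by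
  choose m hm using fun a b => w.surj (mu k i a b)
  have h1 : e * w.ε i = w.ε i := w.mul_ε_of_one he hee (by simp [hi])
  set s := ∑ j, m j 0 * w.ε i * m 0 j with hs
  have h2 : s * e = s := by
    rw [hs, Finset.sum_mul]
    exact Finset.sum_congr rfl fun j _ => by rw [mul_assoc, ← he, ← mul_assoc, mul_assoc (m j 0), ← he, h1]
  have h3 : w.φ (s - e) = 0 := by
    simp only [hs, map_sub, map_sum, map_mul, hm, w.φ_ε, mu_mul, hi, sub_eq_zero]
    ext δ : 1
    by_cases e : δ = i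
    · subst e; simp [mu, Matrix.sum_single_one]
    · simp [mu, Pi.single_eq_of_ne e]
  obtain ⟨u, hu⟩ := (w.nil _ h3).isUnit_add_one
  refine ⟨fun j => m j 0, fun j => m 0 j * (u⁻¹ : Aˣ), ?_⟩
  simp only [← mul_assoc]
  rw [← Finset.sum_mul, ← hs, Units.mul_inv_eq_iff_eq_mul, hu, mul_add, mul_sub, hee, he, h2]; simp

theorem finrank_crn_le (he : ∀ a, e * a = a * e) (hee : e * e = e) (hi : w.φ e = Pi.single i 1) {K : Submodule k A}
    (hK : ∀ x ∈ crn k (w.ε i), ∀ y ∈ crn k (w.ε i), x * y - y * x ∈ K) :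
    finrank k (crn k (w.ε i)) ≤ finrank k K + finrank k (trF k e) := by
  obtain ⟨a, b, h⟩ := w.exists_sum he hee hi
  have h1 : e * w.ε i = w.ε i := w.mul_ε_of_one he hee (by simp [hi])
  have hε := w.idem i
  set ε := w.ε i
  have mc : ∀ x, ε * x * ε ∈ crn k ε := fun x => ⟨by simp [← mul_assoc, hε], by simp [mul_assoc, hε]⟩
  let Ψ : Dual k A →ₗ[k] Dual k A :=
    ∑ j, (LinearMap.mulLeft k (ε * b j) ∘ₗ LinearMap.mulRight k (a j * ε)).dualMap
  have hΨ : ∀ t x, Ψ t x = ∑ j, t (ε * (b j * x * a j) * ε) := fun t x => by simp [Ψ, mul_assoc]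
  have tc : ∀ t ∈ K.dualAnnihilator, ∀ x y, t (ε * x * ε * (ε * y * ε)) = t (ε * y * ε * (ε * x * ε)) := fun t ht x y => by
    rw [← sub_eq_zero, ← map_sub]; exact (Submodule.mem_dualAnnihilator _).1 ht _ (hK _ (mc x) _ (mc y))
  have sp : ∀ x y, ε * (x * y) * ε = ∑ l, ε * (x * a l) * ε * (ε * (b l * y) * ε) := fun x y => by
    calc ε * (x * y) * ε = ε * x * e * y * ε := by rw [mul_assoc ε x e, ← he, ← mul_assoc ε e, ← he, h1, mul_assoc ε x y]
      _ = _ := by rw [← h]; simp [Finset.mul_sum, Finset.sum_mul, mul_assoc, ← mul_assoc ε ε, hε]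
  have m1 : ∀ t ∈ K.dualAnnihilator, Ψ t ∈ trF k e := fun t ht => ⟨fun x y => by
      have : ∀ x y, Ψ t (x * y) = ∑ j, ∑ l, t (ε * (b j * x * a l) * ε * (ε * (b l * y * a j) * ε)) := fun x y => by
        rw [hΨ]
        refine Finset.sum_congr rfl fun j _ => ?_
        rw [show b j * (x * y) * a j = b j * x * (y * a j) by simp [mul_assoc], sp, map_sum]
        simp [mul_assoc]
      rw [this, this, Finset.sum_comm]
      simp only [tc t ht (b _ * x * _)], fun x => by
      rw [hΨ, hΨ]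
      refine Finset.sum_congr rfl fun j _ => ?_
      rw [← mul_assoc (b j), ← he, mul_assoc e, mul_assoc e, ← mul_assoc ε e, ← he, h1]⟩
  have m2 : ∀ t ∈ K.dualAnnihilator, Ψ t = 0 → t ∈ (crn k ε).dualAnnihilator := fun t ht h0 => by
    rw [Submodule.mem_dualAnnihilator]
    intro x hx
    have := LinearMap.congr_fun h0 x
    rw [hΨ, LinearMap.zero_apply] at this
    have e1 := sp x 1
    rw [mul_one, hx.1, hx.2] at e1
    rw [← this, e1, map_sum]
    refine Finset.sum_congr rfl fun j _ => ?_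
    rw [tc t ht, ← e1]
    simp only [mul_one, mul_assoc, ← mul_assoc ε x, hx.1]
  have r := LinearMap.finrank_range_add_finrank_ker (K := k) (V := K.dualAnnihilator) (V₂ := Dual k A)
    (Ψ.domRestrict K.dualAnnihilator)
  have r1 : finrank k (LinearMap.range (Ψ.domRestrict K.dualAnnihilator)) ≤ finrank k (trF k e) :=
    Submodule.finrank_mono (by rintro _ ⟨t, rfl⟩; exact m1 t t.2)
  have r2 : finrank k (LinearMap.ker (Ψ.domRestrict K.dualAnnihilator)) ≤ finrank k (crn k ε).dualAnnihilator := by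
    rw [← Submodule.finrank_map_subtype_eq]
    exact Submodule.finrank_mono (by rintro _ ⟨t, ht, rfl⟩; exact m2 t t.2 ht)
  have := Subspace.finrank_add_finrank_dualAnnihilator_eq K
  have := Subspace.finrank_add_finrank_dualAnnihilator_eq (crn k ε)
  omega

theorem finrank_range_le (he : ∀ a, e * a = a * e) (hee : e * e = e) (hi : w.φ e = Pi.single i 1) :
    finrank k (LinearMap.range (LinearMap.mulLeft k e)) ≤ w.d i ^ 2 * finrank k (crn k (w.ε i)) := by
  obtain ⟨a, b, h⟩ := w.exists_sum he hee hi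
  have hε := w.idem i
  set ε := w.ε i
  let T : (Fin (w.d i) × Fin (w.d i) → crn k ε) →ₗ[k] A := ∑ j : Fin (w.d i) × Fin (w.d i),
    LinearMap.mulLeft k (a j.1) ∘ₗ LinearMap.mulRight k (b j.2) ∘ₗ (crn k ε).subtype ∘ₗ LinearMap.proj j
  refine (Submodule.finrank_mono (t := LinearMap.range T) ?_).trans (T.finrank_range_le.trans (by simp [finrank_pi_fintype, sq]))
  rintro _ ⟨x, rfl⟩
  refine ⟨fun j => ⟨ε * (b j.1 * x * a j.2) * ε, by simp [← mul_assoc, hε], by simp [mul_assoc, hε]⟩, ?_⟩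
  calc _ = e * x * e := by
        rw [← h]; simp [T, Finset.mul_sum, Finset.sum_mul, mul_assoc, Fintype.sum_prod_type]; exact Finset.sum_comm
    _ = _ := by rw [mul_assoc, ← he, ← mul_assoc, hee]; rfl

theorem finrank_le (he : ∀ a, e * a = a * e) (hee : e * e = e) (hi : w.φ e = Pi.single i 1) (s : A →ₗ[k] k)
    (hs : ∀ x y, s (x * y) = s (y * x)) (nd : ∀ x, (∀ y, s (x * y) = 0) → x = 0) (h4 : finrank k (trF k e) ≤ 4) :
    finrank k (LinearMap.range (LinearMap.mulLeft k e)) ≤ w.d i ^ 2 * finrank k (trF k e) := by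
  have hε := w.idem i
  set J := crn k (w.ε i) ⊓ LinearMap.ker w.φ.toLinearMap
  have dec : ∀ x ∈ crn k (w.ε i), ∃ (c : k), ∃ j ∈ J, x = c • w.ε i + j := fun x hx => by
    refine ⟨w.φ x i 0 0, x - w.φ x i 0 0 • w.ε i, ⟨sub_mem hx (Submodule.smul_mem _ _ ⟨hε, hε⟩), ?_⟩, by simp⟩
    show w.φ _ = 0
    rw [map_sub, map_smul, w.φ_ε, ← mu_mul_mul, ← w.φ_ε, ← map_mul, ← map_mul, hx.1, hx.2, sub_self]
  have hK : ∀ x ∈ crn k (w.ε i), ∀ y ∈ crn k (w.ε i), x * y - y * x ∈ cms J := fun x hx y hy => by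
    obtain ⟨c, j, hj, rfl⟩ := dec x hx
    obtain ⟨c', j', hj', rfl⟩ := dec y hy
    convert mem_cms hj hj' using 1
    simp only [add_mul, mul_add, smul_mul_assoc, mul_smul_comm, hε, hj.1.1, hj.1.2, hj'.1.1, hj'.1.2]; module
  have l := w.finrank_crn_le he hee hi hK
  have lt : finrank k J < finrank k (crn k (w.ε i)) := Submodule.finrank_lt_finrank_of_lt (lt_of_le_of_ne inf_le_left fun e =>
    mu_ne_zero (k := k) i 0 0 ((w.φ_ε i).symm.trans (e.ge ⟨hε, hε⟩).2))
  obtain ⟨n, hn⟩ := w.exists_pow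
  have z := cms_eq_bot (J := J) (n := n) (eq_bot_iff.2 (hn ▸ pow_le_pow_left' inf_le_right n))
    (Submodule.mul_le.2 fun x hx y hy => ⟨⟨by rw [← mul_assoc, hx.1.1], by rw [mul_assoc, hy.1.2]⟩, by
      show w.φ _ = 0
      rw [map_mul, show w.φ x = 0 from hx.2, zero_mul]⟩) s hs (fun x hx h1 h2 => nd x fun y => by
      obtain ⟨c, j, hj, e⟩ := dec (w.ε i * y * w.ε i) ⟨by simp [← mul_assoc, hε], by simp [mul_assoc, hε]⟩
      rw [← hx.1.1, mul_assoc, hs, ← hx.1.2, mul_assoc, mul_assoc, ← mul_assoc (w.ε i), e, mul_add, h1 j hj,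
        mul_smul_comm, hx.1.2, add_zero, map_smul, h2, smul_zero]) (by omega)
  rw [z, finrank_bot, zero_add] at l
  exact (w.finrank_range_le he hee hi).trans (Nat.mul_le_mul_left _ l)

end Wd
end alg

variable {p : ℕ} {M : Ideal AlgInt} {G : Type*} [Group G] [Finite G] [PMod p M] [Fact p.Prime] {B : Bl M G}

theorem Bl.finrank_trF_le (B : Bl M G) : finrank (RF M) (trF (RF M) B.e) ≤ Nat.card B.1 := by
  classical
  haveI := Fintype.ofFinite G
  set W := trF (RF M) B.e
  haveI : Module.Free (RF M) W := Module.Free.of_divisionRing (RF M) W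
  let f := Module.finBasis (RF M) W
  have hx : ∀ j, ∃ x : (RF M)[G], ∀ i, (f i).1 x = if i = j then 1 else 0 := fun j => by
    obtain ⟨φ, hφ⟩ := LinearMap.exists_extend (f.coord j)
    obtain ⟨x, rfl⟩ := (Module.evalEquiv (RF M) (RF M)[G]).surjective φ
    exact ⟨x, fun i => by simpa [Finsupp.single_apply] using LinearMap.congr_fun hφ (f i)⟩
  choose x hx using hx
  choose r hr using IsLocalRing.residue_surjective (R := LR M)
  let F : Fin (finrank (RF M) W) → G → ℂ := fun i g => r ((f i).1 (single (crep (ConjClasses.mk g)) 1))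
  have cF : ∀ i, IsClassFunction G (F i) := fun i g h => by
    simp only [F]
    rw [ConjClasses.mk_eq_mk_iff_isConj.2 (isConj_iff.2 ⟨h⁻¹, by group⟩ : IsConj (h * g * h⁻¹) g)]
  have rF : ∀ i g, red M (F i g) = (f i).1 (single g 1) := fun i g => by
    obtain ⟨c, hc⟩ := isConj_iff.1 (isConj_crep_mk g)
    rw [red_coe, hr]
    conv_rhs => rw [← hc, ← mul_one (1 : RF M), ← single_mul_single, (f i).2.1, single_mul_single]
    simp
  have rc : ∀ i y, red M (chi (F i) (toC M G y)) = (f i).1 (toF M G y) := fun i y => by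
    rw [chi_apply, red_sum _ _ fun g _ => mul_mem (by simp) (r _).2, eq_sum_single (toF M G y), map_sum]
    refine Finset.sum_congr rfl fun g _ => ?_
    rw [red_mul (by simp) (r _).2, rF, ← coeff_toF_eq_red, ← smul_eq_mul, ← map_smul, smul_single, smul_eq_mul, mul_one]
  let N : Matrix _ _ ℂ := Matrix.of fun i j => chi (blockPart B.1 (F i)) (toC M G (liftF (x j)))
  have eN : ∀ i j, N i j = chi (F i) (toC M G (B.fR * liftF (x j))) := fun i j => by
    simp [N, chi_blockPart (cF i)]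
  have hN : N.det ≠ 0 := fun h => by
    have := red_det (M := M) N fun i j => eN i j ▸ chi_toC_mem (fun g => (r _).2) _
    rw [h, red_zero, show N.map (red M) = 1 by
      ext i j; rw [Matrix.map_apply, eN, rc, map_mul, B.toF_fR, (f i).2.2, toF_liftF, hx, Matrix.one_apply]] at this
    simp at this
  let T : (G → ℂ) →ₗ[ℂ] Fin (finrank (RF M) W) → ℂ :=
    ⟨⟨fun θ j => chi θ (toC M G (liftF (x j))), fun _ _ => funext fun _ => chi_add_left _ _ _⟩,
      fun _ _ => funext fun _ => chi_smul_left _ _ _⟩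
  have li : LinearIndependent ℂ fun i => blockPart B.1 (F i) :=
    LinearIndependent.of_comp T (Matrix.linearIndependent_rows_of_det_ne_zero hN)
  have := linearIndependent_le_span_aux' _ li (Set.range fun χ : B.1 => χ.1.1) (by
    rintro _ ⟨i, rfl⟩
    simp only [blockPart_eq]
    exact Submodule.sum_mem _ fun χ hχ => Submodule.smul_mem _ _ (Submodule.subset_span ⟨⟨χ, by simpa using hχ⟩, rfl⟩))
  rw [Fintype.card_fin] at this
  rw [Nat.card_eq_fintype_card]
  exact this.trans (Fintype.card_range_le _)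

theorem Bl.flat_of_card_le (hl : blockRank p B.1 = 1) (hk : Nat.card B.1 ≤ 4) : B.Flat := by
  classical
  haveI := Fintype.ofFinite G
  obtain ⟨w⟩ := Wd.nonempty (RF M) (RF M)[G]
  obtain ⟨i, hi⟩ := Finset.card_eq_one.1 ((w.card_I B).trans hl)
  have hφ : w.φ B.e = Pi.single i 1 := funext fun j => by
    by_cases e : j = i
    · subst e; simpa using w.mem_I.1 (hi ▸ Finset.mem_singleton_self j)
    · rw [Pi.single_eq_of_ne e, w.not_mem_I (by simpa [hi] using e)]
  let s : (RF M)[G] →ₗ[RF M] RF M := (Finsupp.lapply 1).comp (coeffLinearEquiv (RF M)).toLinearMap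
  have hs : ∀ x, s x = x.coeff 1 := fun _ => rfl
  have l := w.finrank_le (Zc_comm B.e_mem) B.e_mul_self hφ s (fun x y => by
    induction y using ga_induction with
    | h0 => simp
    | hadd a b ha hb => rw [mul_add, add_mul, map_add, map_add, ha, hb]
    | h c g => simp [hs, mul_comm]) (fun x h => by
      ext g
      simpa [hs] using h (single g⁻¹ 1)) (B.finrank_trF_le.trans hk)
  have l2 := l.trans (Nat.mul_le_mul_left _ B.finrank_trF_le)
  rw [finrank_range_e, dimA, B.card_eq_card, mul_comm, ← smul_eq_mul, ← Finset.sum_const] at l2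
  have d : ∀ χ ∈ B.1, charDegree χ.1 = w.dec χ i * w.d i := fun χ hχ => by
    rw [w.deg_eq_sum_dec hχ, hi, Finset.sum_singleton]
  have g1 : ∀ χ ∈ Finset.univ.filter (· ∈ B.1), w.d i ^ 2 ≤ charDegree χ.1 ^ 2 := fun χ hχ =>
    Nat.pow_le_pow_left (Nat.le_of_dvd (Nat.pos_of_ne_zero (charDegree_ne_zero χ.2))
      (d χ (by simpa using hχ) ▸ dvd_mul_left _ _)) 2
  have e := (Finset.sum_eq_sum_iff_of_le g1).1 (le_antisymm (Finset.sum_le_sum g1) (by convert l2))
  have e1 : ∀ χ ∈ B.1, w.dec χ i = 1 := fun χ hχ => by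
    have := Nat.pow_left_injective two_ne_zero (e χ (by simpa using hχ))
    rwa [d χ hχ, eq_comm, Nat.mul_eq_right (w.d_pos i).ne'] at this
  intro ξ hξ ζ hζ y hy
  rw [w.reg_eq_sum_dec hξ hy, w.reg_eq_sum_dec hζ hy, hi, Finset.sum_singleton, Finset.sum_singleton, e1 ξ hξ, e1 ζ hζ]

end H9
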